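import Cfsg.Agent.NaturalSL2.Exponent
import Mathlib.GroupTheory.QuotientGroup.Basic
import Mathlib.Algebra.Group.Subgroup.Basic

/-!
The action of an extension of `SL(2, 2ⁿ)` on an abelian normal subgroup on which the elements of
order three act without fixed points.
-/

set_option autoImplicit false

namespace Cfsg.Agent.NaturalSL2

open Matrix SpecialLinearGroup
open scoped MatrixGroups IsMulCommutative

variable {K : Type*} [Field K] [CharP K 2]

/-- A matrix of order three in `SL(2, K)` has trace one. -/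
theorem trace_eq_one {M : SL(2, K)} (h3 : M ^ 3 = 1) (h1 : M ≠ 1) :
    (M : Matrix (Fin 2) (Fin 2) K) 0 0 + (M : Matrix (Fin 2) (Fin 2) K) 1 1 = 1 := by
  have hdet := Matrix.det_fin_two (M : Matrix (Fin 2) (Fin 2) K)
  rw [M.det_coe] at hdet
  obtain ⟨a, b, c, d, hM⟩ : ∃ a b c d : K, (M : Matrix (Fin 2) (Fin 2) K) = !![a, b; c, d] :=
    ⟨_, _, _, _, Matrix.eta_fin_two _⟩
  rw [hM] at hdet ⊢
  simp only [Matrix.of_apply, Matrix.cons_val', Matrix.cons_val_zero, Matrix.cons_val_one,
    Matrix.cons_val_fin_one] at hdet ⊢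
  have h := congrArg (fun z : SL(2, K) => (z : Matrix (Fin 2) (Fin 2) K)) h3
  simp only [pow_succ, pow_zero, one_mul, coe_mul, coe_one, hM] at h
  have h00 := congrFun (congrFun h 0) 0
  have h01 := congrFun (congrFun h 0) 1
  have h10 := congrFun (congrFun h 1) 0
  have h11 := congrFun (congrFun h 1) 1
  simp [Matrix.mul_apply, Fin.sum_univ_two] at h00 h01 h10 h11
  by_contra ht
  have ht' : (a + d + 1) * (a + d + 1) ≠ 0 :=
    mul_self_ne_zero.2 fun e => ht (CharTwo.add_eq_zero.1 e)
  have two := CharTwo.two_eq_zero (R := K)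
  have eb : b = 0 := (mul_eq_zero.1 (show (a + d + 1) * (a + d + 1) * b = 0 by
    linear_combination h01 - b * hdet + b * (1 + a + d) * two)).resolve_left ht'
  have ec : c = 0 := (mul_eq_zero.1 (show (a + d + 1) * (a + d + 1) * c = 0 by
    linear_combination h10 - c * hdet + c * (1 + a + d) * two)).resolve_left ht'
  subst eb ec
  have had : a * d = 1 := by linear_combination -hdet
  have ha3 : a * a * a = 1 := by linear_combination h00
  have ha : a ≠ 1 := fun ha => h1 <| Subtype.ext <| by
    have hd : d = 1 := by rw [ha, one_mul] at had; exact had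
    rw [hM, ha, hd, coe_one, Matrix.one_fin_two]
  have : (a - 1) * (a * a + a + 1) = 0 := by linear_combination ha3
  have e := (mul_eq_zero.1 this).resolve_left (sub_ne_zero.2 ha)
  exact ht (by linear_combination e - d * ha3 + a * a * had - two)

/-- Any two matrices of trace one are conjugate: they are all conjugate to `!![0, 1; 1, 1]`. -/
theorem exists_conj_eq [Finite K] {M : SL(2, K)}
    (ht : (M : Matrix (Fin 2) (Fin 2) K) 0 0 + (M : Matrix (Fin 2) (Fin 2) K) 1 1 = 1) :
    ∃ P : SL(2, K), M * P = P * (upper 1 * lower 1) := by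
  have : Fintype K := Fintype.ofFinite K
  have two := CharTwo.two_eq_zero (R := K)
  obtain ⟨a, b, c, d, hM⟩ : ∃ a b c d : K, (M : Matrix (Fin 2) (Fin 2) K) = !![a, b; c, d] :=
    ⟨_, _, _, _, Matrix.eta_fin_two _⟩
  have hdet := Matrix.det_fin_two (M : Matrix (Fin 2) (Fin 2) K)
  rw [M.det_coe, hM] at hdet
  rw [hM] at ht
  simp only [Matrix.of_apply, Matrix.cons_val', Matrix.cons_val_zero, Matrix.cons_val_one,
    Matrix.cons_val_fin_one] at hdet ht
  obtain ⟨v, w, hv⟩ : ∃ v w : K, v * (c * v + d * w) - w * (a * v + b * w) ≠ 0 := by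
    by_contra hcon
    push Not at hcon
    have h1 := hcon 1 0
    have h2 := hcon 0 1
    have h3 := hcon 1 1
    exact one_ne_zero (show (1 : K) = 0 by linear_combination -ht + h3 - h1 - h2 + a * two)
  obtain ⟨D, hD⟩ : ∃ D, D = v * (c * v + d * w) - w * (a * v + b * w) := ⟨_, rfl⟩
  rw [← hD] at hv
  obtain ⟨s, hs⟩ := FiniteField.isSquare_of_char_two (ringChar.eq K 2) D⁻¹
  have hdP : Matrix.det !![s * v, s * (a * v + b * w); s * w, s * (c * v + d * w)] = 1 := by
    rw [Matrix.det_fin_two_of]
    have e : s * s * D = 1 := by rw [← hs, inv_mul_cancel₀ hv]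
    linear_combination e - (s * s) * hD
  let P : SL(2, K) := ⟨_, hdP⟩
  have hP : (P : Matrix (Fin 2) (Fin 2) K) =
      !![s * v, s * (a * v + b * w); s * w, s * (c * v + d * w)] := rfl
  refine ⟨P, Subtype.ext ?_⟩
  rw [coe_mul, coe_mul, coe_mul, hM, hP, coe_upper, coe_lower]
  ext i j
  fin_cases i <;> fin_cases j <;> simp [Matrix.mul_apply, Fin.sum_univ_two]
  · linear_combination (-s * v) * two
  · linear_combination (s * (a * v + b * w)) * ht + (s * v) * hdet + (-s * v) * two
  · linear_combination (-s * w) * two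
  · linear_combination (s * (c * v + d * w)) * ht + (s * w) * hdet + (-s * w) * two

end Cfsg.Agent.NaturalSL2
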