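import Cfsg.Agent.NaturalSL2.Group
import Mathlib.LinearAlgebra.Dimension.StrongRankCondition
import Mathlib.LinearAlgebra.FreeModule.Finite.Basic
import Mathlib.LinearAlgebra.Basis.VectorSpace

/-!
A module for the ring of 2 × 2 matrices over a field is a sum of copies of the natural module.
-/

set_option autoImplicit false

namespace Cfsg.Agent.NaturalSL2

open Matrix

variable {K : Type*} [Field K] {W : Type*} [AddCommGroup W] [Finite W]

/-- The first column. -/
def col (v : Fin 2 → K) : Matrix (Fin 2) (Fin 2) K := !![v 0, 0; v 1, 0]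

theorem mul_col (M : Matrix (Fin 2) (Fin 2) K) (v : Fin 2 → K) : M * col v = col (M *ᵥ v) := by
  ext i j
  fin_cases i <;> fin_cases j <;> simp [col, Matrix.mul_apply, Matrix.mulVec, dotProduct]

theorem col_add (v w : Fin 2 → K) : col (v + w) = col v + col w := by
  ext i j
  fin_cases i <;> fin_cases j <;> simp [col]

theorem exists_natural_decomposition (Φ : Matrix (Fin 2) (Fin 2) K →+* AddMonoid.End W) :
    ∃ (k : ℕ) (T : (Fin k → Fin 2 → K) ≃+ W),
      ∀ (M : Matrix (Fin 2) (Fin 2) K) (f : Fin k → Fin 2 → K),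
        Φ M (T f) = T fun i => M *ᵥ f i := by
  let _ : Module K W := Module.compHom W (Φ.comp (Matrix.scalar (Fin 2)))
  have smul_def : ∀ (c : K) (w : W), c • w = Φ (Matrix.scalar (Fin 2) c) w := fun c w => rfl
  have app : ∀ (M N : Matrix (Fin 2) (Fin 2) K) (w : W), Φ M (Φ N w) = Φ (M * N) w :=
    fun M N w => by rw [map_mul]; rfl
  have appadd : ∀ (M N : Matrix (Fin 2) (Fin 2) K) (w : W), Φ (M + N) w = Φ M w + Φ N w :=
    fun M N w => by rw [map_add]; rfl
  let E : Matrix (Fin 2) (Fin 2) K := !![1, 0; 0, 0]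
  let e : W →ₗ[K] W :=
    { toFun := Φ E
      map_add' := map_add _
      map_smul' := fun c w => by
        show Φ E (c • w) = c • Φ E w
        rw [smul_def, smul_def, app, app]
        congr 2
        ext i j
        fin_cases i <;> fin_cases j <;> simp [E, Matrix.mul_apply, Fin.sum_univ_two] }
  have : Module.Finite K W := Module.Finite.of_finite
  let b := Module.finBasis K (LinearMap.range e)
  have hEb : ∀ i, Φ E (b i : W) = b i := fun i => by
    obtain ⟨w, hw⟩ := (b i).2
    rw [← hw]
    show Φ E (Φ E w) = Φ E w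
    rw [app]
    congr 2
    ext i j
    fin_cases i <;> fin_cases j <;> simp [E, Matrix.mul_apply, Fin.sum_univ_two]
  let T₀ : (Fin (Module.finrank K (LinearMap.range e)) → Fin 2 → K) →+ W :=
    AddMonoidHom.mk' (fun f => ∑ i, Φ (col (f i)) (b i : W)) fun f g => by
      rw [← Finset.sum_add_distrib]
      exact Finset.sum_congr rfl fun i _ => by rw [Pi.add_apply, col_add, appadd]
  have equivar : ∀ (M : Matrix (Fin 2) (Fin 2) K) f, Φ M (T₀ f) = T₀ fun i => M *ᵥ f i :=
    fun M f => by
      show Φ M (∑ i, Φ (col (f i)) (b i : W)) = ∑ i, Φ (col (M *ᵥ f i)) (b i : W)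
      rw [map_sum]
      exact Finset.sum_congr rfl fun i _ => by rw [app, mul_col]
  have coef : ∀ c : Fin (Module.finrank K (LinearMap.range e)) → K,
      T₀ (fun i => ![c i, 0]) = ((∑ i, c i • b i : LinearMap.range e) : W) := fun c => by
    show ∑ i, Φ (col ![c i, 0]) (b i : W) = _
    rw [Submodule.coe_sum]
    refine Finset.sum_congr rfl fun i _ => ?_
    rw [Submodule.coe_smul, smul_def]
    conv_rhs => rw [← hEb i, app]
    congr 2
    ext k l
    fin_cases k <;> fin_cases l <;> simp [E, col, Matrix.mul_apply, Fin.sum_univ_two]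
  have surj : Function.Surjective T₀ := fun w => by
    have hcoef : ∀ u : W, ∃ f, T₀ f = Φ E u := fun u =>
      ⟨fun i => ![b.repr ⟨e u, LinearMap.mem_range_self e u⟩ i, 0], by rw [coef, b.sum_repr]; rfl⟩
    obtain ⟨f, hf⟩ := hcoef w
    obtain ⟨g, hg⟩ := hcoef (Φ !![0, 1; 0, 0] w)
    refine ⟨f + fun i => !![0, 0; 1, 0] *ᵥ g i, ?_⟩
    rw [map_add, ← equivar, hf, hg, app, app, ← appadd]
    have : E + !![0, 0; 1, 0] * E * !![0, 1; 0, 0] = 1 := by
      ext i j
      fin_cases i <;> fin_cases j <;> simp [E, Matrix.mul_apply, Fin.sum_univ_two]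
    rw [this, map_one]
    rfl
  have inj : Function.Injective T₀ := by
    rw [injective_iff_map_eq_zero]
    intro f hf
    have key : ∀ c : Fin (Module.finrank K (LinearMap.range e)) → K,
        T₀ (fun i => ![c i, 0]) = 0 → c = 0 := fun c hc => by
      rw [coef] at hc
      exact funext fun i => Fintype.linearIndependent_iff.1 b.linearIndependent c
        (Subtype.ext hc) i
    have h0 := key (fun i => f i 0) (by
      have h := equivar E f
      rw [hf, map_zero] at h
      rw [h]
      congr 1
      funext i j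
      fin_cases j <;> simp [E, Matrix.mulVec, dotProduct])
    have h1 := key (fun i => f i 1) (by
      have h := equivar !![0, 1; 0, 0] f
      rw [hf, map_zero] at h
      rw [h]
      congr 1
      funext i j
      fin_cases j <;> simp [Matrix.mulVec, dotProduct])
    funext i j
    fin_cases j
    · exact congrFun h0 i
    · exact congrFun h1 i
  exact ⟨_, AddEquiv.ofBijective T₀ ⟨inj, surj⟩, equivar⟩

end Cfsg.Agent.NaturalSL2
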