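import Cfsg.Agent.NaturalSL2.Extend
import Mathlib.RingTheory.Ideal.Quotient.Operations
import Mathlib.Tactic.NoncommRing

/-!
A homomorphism from `SL(2, 2ⁿ)`, `n ≥ 2`, into a ring with `4 = 0`, in which the elements of order
three satisfy `X² + X + 1 = 0`, takes values in a ring of characteristic two.
-/

set_option autoImplicit false

namespace Cfsg.Agent.NaturalSL2

open Matrix SpecialLinearGroup
open scoped MatrixGroups

/-- The argument in the ring: `p`, `q` generate the action of `SL(2,2)`, `r` is a further upper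
unipotent and `L` inverts `B + B²` modulo `2` for the resulting element `B`. -/
theorem two_eq_zero_aux {R : Type*} [Ring R] (h4 : (4 : R) = 0) {p q r : R}
    (hp : p * p = 1) (hq : q * q = 1) (hpq : p * q + q * p = -1) (hr : r * r = 1)
    (hpr : p * r = r * p) (he : ∃ C T : R, r - 1 = C * (p - 1) + 2 * T)
    {n : ℕ} (hB : ∃ T : R, (r * q - q * ((1 + 2 * q) * r * (1 + 2 * q))) ^ (2 * n) =
      (r * q - q * ((1 + 2 * q) * r * (1 + 2 * q))) + 2 * T)
    (hL : ∃ L T : R, L * ((r * q - q * ((1 + 2 * q) * r * (1 + 2 * q))) +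
      (r * q - q * ((1 + 2 * q) * r * (1 + 2 * q))) ^ 2) = 1 + 2 * T) :
    (2 : R) = 0 := by
  obtain ⟨S, hS⟩ : ∃ S : R, S = 1 + 2 * q := ⟨_, rfl⟩
  obtain ⟨D, hD⟩ : ∃ D : R, D = S * r * S := ⟨_, rfl⟩
  obtain ⟨B, hB'⟩ : ∃ B : R, B = r * q - q * D := ⟨_, rfl⟩
  rw [← hS, ← hD, ← hB'] at hB hL
  obtain ⟨C, T₀, hC⟩ := he
  have two : ∀ x : R, (2 : R) * x = x * 2 := fun x => by rw [two_mul, mul_two]
  have four : ∀ x : R, (2 : R) * (2 * x) = 0 := fun x => by
    rw [← mul_assoc, show (2 : R) * 2 = 4 by norm_num, h4, zero_mul]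
  have two' : ∀ x y : R, x * ((2 : R) * y) = 2 * (x * y) := fun x y => by
    rw [← mul_assoc, ← two, mul_assoc]
  have neg2 : ∀ x : R, -((2 : R) * x) = 2 * x := fun x =>
    neg_eq_of_add_eq_zero_left (by rw [← two_mul, four])
  have hSS : S * S = 1 := by
    have : S * S = 1 + (2 : R) * (2 * q) + (2 : R) * (2 * (q * q)) := by rw [hS]; noncomm_ring
    rw [this, four, four, add_zero, add_zero]
  have hqp : q * p = -1 - p * q := by rw [← hpq]; abel
  have hpW : ∀ v : R, p * (S * ((1 - p) * v)) = S * ((1 - p) * v) := by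
    have key : p * S * (1 - p) = S * (1 - p) := by
      have e1 : p * q * p = -p - q := by
        rw [mul_assoc, hqp, mul_sub, ← mul_assoc, hp, one_mul, mul_neg_one]
      have : p * S * (1 - p) - S * (1 - p) =
          2 * p - 1 - p * p + 2 * (p * q) - 2 * (p * q * p) - 2 * q + 2 * (q * p) := by
        rw [hS]; noncomm_ring
      rw [← sub_eq_zero, this, hp, e1, hqp,
        show 2 * p - 1 - 1 + 2 * (p * q) - 2 * (-p - q) - 2 * q + 2 * (-1 - p * q) =
          (2 : R) * (2 * p) - 2 * (2 * 1) by noncomm_ring, four, four, sub_zero]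
    intro v
    rw [← mul_assoc, ← mul_assoc, ← mul_assoc, key]
  have hpA : ∀ v : R, p * (v - q * (S * ((1 - p) * v))) = v - q * (S * ((1 - p) * v)) := by
    intro v
    have e : S * (S * ((1 - p) * v)) = v - p * v := by rw [← mul_assoc, hSS, one_mul, sub_mul,
      one_mul]
    have e2 : p * (q * (S * ((1 - p) * v))) =
        -(q * (S * ((1 - p) * v))) - S * ((1 - p) * v) := by
      rw [← mul_assoc, eq_sub_of_add_eq hpq, sub_mul, mul_assoc, hpW]
      noncomm_ring
    rw [mul_sub, e2]
    have e3 : S * ((1 - p) * v) + 2 * (q * (S * ((1 - p) * v))) = v - p * v := by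
      rw [← e, hS]; noncomm_ring
    calc p * v - (-(q * (S * ((1 - p) * v))) - S * ((1 - p) * v))
        = p * v + (S * ((1 - p) * v) + 2 * (q * (S * ((1 - p) * v)))) -
            q * (S * ((1 - p) * v)) := by noncomm_ring
      _ = v - q * (S * ((1 - p) * v)) := by rw [e3]; abel
  have uniq : ∀ a b : R, p * a = a → p * b = b → a + q * b = 0 → a = 0 ∧ b = 0 := by
    intro a b ha hb hab
    have h : S * b = 0 := by
      have : (1 - p) * (a + q * b) = (1 + 2 * q) * b := by
        rw [sub_mul, one_mul, mul_add, ha, ← mul_assoc, eq_sub_of_add_eq hpq, sub_mul,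
          mul_assoc q p b, hb]
        noncomm_ring
      rw [hS, ← this, hab, mul_zero]
    have hb0 : b = 0 := by rw [← one_mul b, ← hSS, mul_assoc, h, mul_zero]
    exact ⟨by simpa [hb0] using hab, hb0⟩
  have hrW : ∀ w : R, p * w = w → p * (r * w) = r * w := fun w hw => by
    rw [← mul_assoc, hpr, mul_assoc, hw]
  have hDw : ∀ w : R, p * w = w → D * w = S * ((1 - p) * (r * (q * w))) := fun w hw => by
    have : (1 - p) * (q * w) = S * w := by
      rw [sub_mul, one_mul, ← mul_assoc p, eq_sub_of_add_eq hpq, sub_mul, mul_assoc q p w, hw, hS]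
      noncomm_ring
    rw [hD, mul_assoc, mul_assoc, ← this, ← mul_assoc r (1 - p), mul_sub, mul_one, ← hpr,
      sub_mul, sub_mul, one_mul, mul_assoc p r]
  have hDW : ∀ w : R, p * w = w → p * (D * w) = D * w := fun w hw => by rw [hDw w hw, hpW]
  have hrq : r * q = B + q * D := by rw [hB', sub_add_cancel]
  have hBW : ∀ w : R, p * w = w → p * (B * w) = B * w := fun w hw => by
    rw [show B * w = r * (q * w) - q * (D * w) by rw [hB']; noncomm_ring, hDw w hw, hpA]
  have hDr : D = r + 2 * B := by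
    rw [← sub_eq_zero]
    calc D - (r + 2 * B) = S * D - r * S := by rw [hB', hS]; noncomm_ring
      _ = 0 := by rw [hD, ← mul_assoc, ← mul_assoc, hSS, one_mul, sub_self]
  have heB : ∀ w : R, p * w = w →
      (r - 1) * (B * w) + B * ((r - 1) * w) = 2 * ((B + B ^ 2) * w) := fun w hw => by
    have h0 : q * w = r * (B * w) + B * (D * w) + q * (D * (D * w)) :=
      calc q * w = r * (r * q * w) := by rw [← mul_assoc, ← mul_assoc, hr, one_mul]
        _ = r * (B * w) + r * q * (D * w) := by
          rw [show r * q * w = B * w + q * (D * w) by rw [hrq, add_mul, mul_assoc]]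
          noncomm_ring
        _ = _ := by rw [hrq]; noncomm_ring
    have h1 := (uniq (r * (B * w) + B * (D * w)) (D * (D * w) - w)
      (by rw [mul_add, hrW _ (hBW w hw), hBW _ (hDW w hw)])
      (by rw [mul_sub, hDW _ (hDW w hw), hw]) (by rw [mul_sub, ← add_sub_assoc, ← h0, sub_self])).1
    rw [hDr] at h1
    have : (r - 1) * (B * w) + B * ((r - 1) * w) =
        (r * (B * w) + B * ((r + 2 * B) * w)) - 2 * ((B + B ^ 2) * w) := by noncomm_ring
    rw [this, h1, zero_sub, neg2]
  have heW : ∀ w : R, p * w = w → (r - 1) * w = 2 * (T₀ * w) := fun w hw => by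
    rw [hC, add_mul, mul_assoc C, sub_mul, hw, one_mul, sub_self, mul_zero, zero_add, mul_assoc]
  have hcomm : ∀ k : ℕ, ∀ w : R, p * w = w → p * (B ^ (2 * k) * w) = B ^ (2 * k) * w ∧
      (r - 1) * (B ^ (2 * k) * w) = B ^ (2 * k) * ((r - 1) * w) := by
    intro k
    induction k with
    | zero => intro w hw; simp [hw]
    | succ k ih =>
      intro w hw
      have hk := ih (B * (B * w)) (hBW _ (hBW w hw))
      have e : ∀ x : R, B ^ (2 * (k + 1)) * x = B ^ (2 * k) * (B * (B * x)) := fun x => by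
        rw [mul_add, pow_add, pow_two]
        simp only [mul_one, mul_assoc]
      rw [e, e]
      refine ⟨hk.1, ?_⟩
      rw [hk.2]
      congr 1
      calc (r - 1) * (B * (B * w))
          = 2 * ((B + B ^ 2) * (B * w)) - B * ((r - 1) * (B * w)) := by
            rw [← heB _ (hBW w hw)]; abel
        _ = 2 * ((B + B ^ 2) * (B * w)) - B * (2 * ((B + B ^ 2) * w) - B * ((r - 1) * w)) := by
            rw [← heB w hw]; abel_nf
        _ = B * (B * ((r - 1) * w)) := by noncomm_ring
  obtain ⟨T, hT⟩ := hB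
  have hW : ∀ w : R, p * w = w → 2 * ((B + B ^ 2) * w) = 0 := fun w hw => by
    obtain ⟨b, hb⟩ : ∃ b, b = S * ((1 - p) * (T * w)) := ⟨_, rfl⟩
    have ha := hpA (T * w)
    rw [← hb] at ha
    have hTw : p * (2 * (T * w)) = 2 * (T * w) := by
      rw [show 2 * (T * w) = B ^ (2 * n) * w - B * w by rw [hT]; noncomm_ring, mul_sub,
        (hcomm n w hw).1, hBW w hw]
    have h2b : 2 * b = 0 := by
      rw [hb, ← two', ← two', sub_mul, one_mul, hTw, sub_self, mul_zero]
    have heT : (r - 1) * (2 * (T * w)) = 0 := by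
      rw [show T * w = (T * w - q * b) + q * b by abel, mul_add, mul_add, two', heW _ ha, four,
        ← two' q b, h2b, mul_zero, mul_zero, add_zero]
    have h1 := (hcomm n w hw).2
    rw [hT, add_mul, mul_add, mul_assoc 2 T w, heT, add_zero, add_mul, heW w hw,
      mul_assoc 2 T, two' T, four, add_zero, ← heW w hw] at h1
    have h2 := heB w hw
    rw [h1, ← two_mul, heW w hw, two', four] at h2
    exact h2.symm
  obtain ⟨L, T', hL⟩ := hL
  have hW2 : ∀ w : R, p * w = w → 2 * w = 0 := fun w hw =>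
    calc (2 : R) * w = 2 * ((1 + 2 * T') * w) := by
          rw [add_mul, one_mul, mul_add, mul_assoc, four, add_zero]
      _ = L * (2 * ((B + B ^ 2) * w)) := by rw [← hL, two', mul_assoc]
      _ = 0 := by rw [hW w hw, mul_zero]
  have e : (1 : R) = (1 - q * (S * ((1 - p) * 1))) + q * (S * ((1 - p) * 1)) := by abel
  rw [← mul_one (2 : R), e, mul_add, hW2 _ (hpA 1), ← two' q, hW2 _ (hpW 1), mul_zero, add_zero]

/-- A homomorphism satisfying `X² + X + 1 = 0` takes values in characteristic two. -/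
theorem two_eq_zero {K : Type*} [Field K] [Finite K] [CharP K 2] (hK : 4 ≤ Nat.card K)
    {R : Type*} [Ring R] (h4 : (4 : R) = 0) (ρ : SL(2, K) →* R)
    (h3 : ∀ a : K, a ≠ 0 →
      ρ (upper a * lower a⁻¹) * ρ (upper a * lower a⁻¹) + ρ (upper a * lower a⁻¹) + 1 = 0) :
    (2 : R) = 0 := by
  have two : ∀ x : R, (2 : R) * x = x * 2 := fun x => by rw [two_mul, mul_two]
  have hI : (Ideal.span {(2 : R)}).IsTwoSided := ⟨fun {a} b ha => by
    obtain ⟨x, rfl⟩ := Ideal.mem_span_singleton'.1 ha
    exact Ideal.mem_span_singleton'.2 ⟨x * b, by rw [mul_assoc, ← two, ← mul_assoc]⟩⟩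
  let red : R →+* R ⧸ Ideal.span {(2 : R)} := Ideal.Quotient.mk _
  have red_eq : ∀ {x y : R}, red x = red y → ∃ T : R, x = y + 2 * T := fun {x y} h => by
    obtain ⟨T, hT⟩ := Ideal.mem_span_singleton'.1 (Ideal.Quotient.eq.1 h)
    exact ⟨T, by rw [two, hT]; abel⟩
  have red2 : (2 : R ⧸ Ideal.span {(2 : R)}) = 0 := by
    rw [← map_ofNat red 2]
    exact Ideal.Quotient.eq_zero_iff_mem.2 (Ideal.mem_span_singleton_self _)
  obtain ⟨Φ, hΦ⟩ := exists_ringHom hK red2 (red.toMonoidHom.comp ρ) fun a ha => by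
    have := congrArg red (h3 a ha)
    simpa using this
  have hred : ∀ g : SL(2, K), red (ρ g) = Φ (g : Matrix (Fin 2) (Fin 2) K) := fun g => (hΦ g).symm
  have rsurj : Function.Surjective red := Ideal.Quotient.mk_surjective
  obtain ⟨c, hc0, hc1⟩ : ∃ c : K, c ≠ 0 ∧ c ≠ 1 := by
    classical
    have : Fintype K := Fintype.ofFinite K
    by_contra hcon
    push Not at hcon
    have hsub : (Finset.univ : Finset K) ⊆ {0, 1} := fun x _ => by
      by_cases hx : x = 0
      · simp [hx]
      · simp [hcon x hx]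
    have := (Finset.card_le_card hsub).trans Finset.card_le_two
    rw [Finset.card_univ, ← Nat.card_eq_fintype_card] at this
    omega
  have hc : c + c ^ 2 ≠ 0 := by
    rw [show c + c ^ 2 = c * (1 + c) by ring]
    exact mul_ne_zero hc0 fun h => hc1 (CharTwo.add_eq_zero.1 h).symm
  have hu : ∀ a : K, ρ (upper a) * ρ (upper a) = 1 := fun a => by
    rw [← map_mul, ← upper_add, CharTwo.add_self_eq_zero, upper_zero, map_one]
  have hq : ρ (lower 1) * ρ (lower 1) = 1 := by
    have : lower (1 : K) * lower 1 = 1 := by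
      ext i j
      fin_cases i <;> fin_cases j <;>
        simp [Matrix.mul_apply, Fin.sum_univ_two, CharTwo.add_self_eq_zero]
    rw [← map_mul, this, map_one]
  have hpq : ρ (upper 1) * ρ (lower 1) + ρ (lower 1) * ρ (upper 1) = -1 := by
    have hi : ρ (lower 1 * upper 1) * ρ (upper 1 * lower 1) = 1 := by
      rw [← map_mul, ← map_one ρ]
      congr 1
      simpa using lower_mul_upper (one_ne_zero (α := K))
    have h := congrArg (fun z => ρ (lower 1 * upper 1) * z) (h3 1 one_ne_zero)
    simp only [inv_one, mul_add, ← mul_assoc, hi, one_mul, mul_one, mul_zero] at h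
    rw [← map_mul, ← map_mul, eq_neg_iff_add_eq_zero, ← h]
    abel
  -- the image of `B` modulo `2`
  have hBred : red (ρ (upper c) * ρ (lower 1) - ρ (lower 1) * ((1 + 2 * ρ (lower 1)) *
      ρ (upper c) * (1 + 2 * ρ (lower 1)))) = Φ (Matrix.scalar (Fin 2) c) := by
    rw [map_sub, map_mul, map_mul, map_mul, map_mul, map_add, map_mul red 2, map_ofNat red 2, red2,
      zero_mul, add_zero, map_one, one_mul, mul_one, hred, hred, ← map_mul, ← map_mul, ← map_sub]
    congr 1
    ext i j
    fin_cases i <;> fin_cases j <;>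
      simp [Matrix.mul_apply, Fin.sum_univ_two, CharTwo.sub_eq_add, CharTwo.add_self_eq_zero,
        add_comm]
    all_goals linear_combination (CharTwo.two_eq_zero (R := K))
  have hpow : ∀ k : ℕ, Φ (Matrix.scalar (Fin 2) c) ^ k = Φ (Matrix.scalar (Fin 2) (c ^ k)) :=
    fun k => by rw [← map_pow, ← map_pow]
  refine two_eq_zero_aux h4 (hu 1) hq hpq (hu c) (n := Nat.card K / 2) ?_ ?_ ?_ ?_
  · rw [← map_mul, ← map_mul, ← upper_add, ← upper_add, add_comm]
  · obtain ⟨C, hC⟩ := rsurj (Φ (Matrix.scalar (Fin 2) c))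
    obtain ⟨T, hT⟩ := red_eq (x := ρ (upper c) - 1) (y := C * (ρ (upper 1) - 1)) (by
      rw [map_sub, map_mul, map_sub, map_one, hC, hred, hred, ← map_one Φ, ← map_sub, ← map_sub,
        ← map_mul]
      congr 1
      ext i j
      fin_cases i <;> fin_cases j <;> simp [Matrix.mul_apply, Fin.sum_univ_two])
    exact ⟨C, T, hT⟩
  · refine red_eq ?_
    rw [map_pow, hBred, hpow]
    congr 2
    have : Fintype K := Fintype.ofFinite K
    have h := FiniteField.pow_card c
    rw [← Nat.card_eq_fintype_card] at h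
    have heven : 2 * (Nat.card K / 2) = Nat.card K := by
      obtain ⟨m, hm⟩ := FiniteField.card K 2
      rw [Nat.card_eq_fintype_card, hm.2]
      exact Nat.mul_div_cancel' (dvd_pow_self 2 m.pos.ne')
    rw [heven, h]
  · obtain ⟨L, hL⟩ := rsurj (Φ (Matrix.scalar (Fin 2) (c + c ^ 2)⁻¹))
    obtain ⟨T, hT⟩ := red_eq (y := (1 : R)) (x := L * ((ρ (upper c) * ρ (lower 1) -
      ρ (lower 1) * ((1 + 2 * ρ (lower 1)) * ρ (upper c) * (1 + 2 * ρ (lower 1)))) +
      (ρ (upper c) * ρ (lower 1) - ρ (lower 1) * ((1 + 2 * ρ (lower 1)) * ρ (upper c) *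
        (1 + 2 * ρ (lower 1)))) ^ 2)) (by
      rw [map_mul, map_add, map_pow, hBred, hL, hpow, ← map_add Φ, ← map_add (Matrix.scalar (Fin 2)),
        ← map_mul Φ, ← map_mul (Matrix.scalar (Fin 2)), inv_mul_cancel₀ hc, map_one, map_one,
        map_one])
    exact ⟨L, T, hT⟩

end Cfsg.Agent.NaturalSL2
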