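import Cfsg.Agent.NaturalSL2.MatrixUnits
import Mathlib.LinearAlgebra.Matrix.SpecialLinearGroup
import Mathlib.FieldTheory.Finite.Basic
import Mathlib.Tactic.LinearCombination

/-!
A homomorphism from `SL(2, 2ⁿ)`, `n ≥ 2`, into a ring of characteristic two in which the elements of
order three satisfy `X² + X + 1 = 0` extends to the matrix ring.
-/

set_option autoImplicit false

namespace Cfsg.Agent.NaturalSL2

open Matrix SpecialLinearGroup
open scoped MatrixGroups

variable {K : Type*} [Field K]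

/-- Upper unipotents. -/
def upper (a : K) : SL(2, K) := ⟨!![1, a; 0, 1], by simp [Matrix.det_fin_two_of]⟩

/-- Lower unipotents. -/
def lower (a : K) : SL(2, K) := ⟨!![1, 0; a, 1], by simp [Matrix.det_fin_two_of]⟩

@[simp]
theorem coe_upper (a : K) : (upper a : Matrix (Fin 2) (Fin 2) K) = !![1, a; 0, 1] := rfl

@[simp]
theorem coe_lower (a : K) : (lower a : Matrix (Fin 2) (Fin 2) K) = !![1, 0; a, 1] := rfl

/-- The element exchanging the axes, in characteristic two. -/
def weyl : SL(2, K) := upper 1 * lower 1 * upper 1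

/-- The diagonal elements, in characteristic two. -/
def torus (a : K) : SL(2, K) := upper a * lower a⁻¹ * upper a * weyl

theorem upper_add (a b : K) : upper (a + b) = upper a * upper b := by
  ext i j; fin_cases i <;> fin_cases j <;> simp [Matrix.mul_apply, Fin.sum_univ_two, add_comm]

theorem upper_zero : upper (0 : K) = 1 := by
  ext i j; fin_cases i <;> fin_cases j <;> simp

theorem mul_eq_induction (g : SL(2, K)) {P : SL(2, K) → Prop} (hu : ∀ a, P (upper a))
    (hl : ∀ a, P (lower a)) (hmul : ∀ x y, P x → P y → P (x * y)) : P g := by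
  have hdet := Matrix.det_fin_two (g : Matrix (Fin 2) (Fin 2) K)
  rw [g.det_coe] at hdet
  have key : ∀ g : SL(2, K), (g : Matrix (Fin 2) (Fin 2) K) 1 0 ≠ 0 → P g := by
    intro g hc
    have hdet := Matrix.det_fin_two (g : Matrix (Fin 2) (Fin 2) K)
    rw [g.det_coe] at hdet
    have e : g = upper (((g : Matrix (Fin 2) (Fin 2) K) 0 0 - 1) / g 1 0) * lower (g 1 0) *
        upper (((g : Matrix (Fin 2) (Fin 2) K) 1 1 - 1) / g 1 0) := by
      ext i j
      fin_cases i <;> fin_cases j <;>
        simp [Matrix.mul_apply, Fin.sum_univ_two] <;> field_simp <;>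
        first | ring1 | linear_combination hdet | linear_combination -hdet
    rw [e]
    exact hmul _ _ (hmul _ _ (hu _) (hl _)) (hu _)
  by_cases hc : (g : Matrix (Fin 2) (Fin 2) K) 1 0 = 0
  · have h00 : (g : Matrix (Fin 2) (Fin 2) K) 0 0 ≠ 0 := fun e => by simp [e, hc] at hdet
    have := key (lower 1 * g) (by simp [Matrix.mul_apply, Fin.sum_univ_two, hc, h00])
    rw [show g = lower (-1) * (lower 1 * g) by
      rw [← mul_assoc]
      have : lower (-1 : K) * lower 1 = 1 := by
        ext i j; fin_cases i <;> fin_cases j <;> simp [Matrix.mul_apply, Fin.sum_univ_two]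
      rw [this, one_mul]]
    exact hmul _ _ (hl _) this
  · exact key g hc

section CharTwo

variable [CharP K 2]

theorem coe_weyl : (weyl (K := K) : Matrix (Fin 2) (Fin 2) K) = !![0, 1; 1, 0] := by
  ext i j
  fin_cases i <;> fin_cases j <;>
    simp [weyl, Matrix.mul_apply, Fin.sum_univ_two, CharTwo.add_self_eq_zero]

theorem coe_torus {a : K} (ha : a ≠ 0) :
    (torus a : Matrix (Fin 2) (Fin 2) K) = !![a, 0; 0, a⁻¹] := by
  ext i j
  fin_cases i <;> fin_cases j <;>
    simp [torus, coe_weyl, Matrix.mul_apply, Fin.sum_univ_two, ha,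
      CharTwo.add_self_eq_zero]

theorem weyl_conj (a : K) : weyl * upper a * weyl = lower a := by
  apply Subtype.ext
  rw [coe_mul, coe_mul, coe_weyl]
  ext i j
  fin_cases i <;> fin_cases j <;> simp [Matrix.mul_apply, Fin.sum_univ_two]

theorem torus_upper {a : K} (ha : a ≠ 0) (c : K) :
    torus a * upper c = upper (a * a * c) * torus a := by
  apply Subtype.ext
  rw [coe_mul, coe_mul, coe_torus ha]
  ext i j
  fin_cases i <;> fin_cases j <;> simp [Matrix.mul_apply, Fin.sum_univ_two] <;> field_simp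

theorem lower_mul_upper {a : K} (ha : a ≠ 0) :
    lower a⁻¹ * upper a * (upper a * lower a⁻¹) = 1 := by
  rw [mul_assoc, ← mul_assoc (upper a), ← upper_add, CharTwo.add_self_eq_zero, upper_zero, one_mul]
  ext i j
  fin_cases i <;> fin_cases j <;>
    simp [Matrix.mul_apply, Fin.sum_univ_two, CharTwo.add_self_eq_zero]

end CharTwo

/-- The computation inside `M₂(B)`. -/
theorem exists_ringHom_aux [Finite K] [CharP K 2] (hK : 4 ≤ Nat.card K) {B : Type*} [Ring B]
    (h2 : (2 : B) = 0) (ρ : SL(2, K) →* Matrix (Fin 2) (Fin 2) B)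
    (hu : ρ (upper 1) = !![1, 1; 0, 1]) (hl : ρ (lower 1) = !![1, 0; 1, 1])
    (h3 : ∀ a : K, a ≠ 0 → ρ (upper a) * ρ (lower a⁻¹) + ρ (lower a⁻¹) * ρ (upper a) = 1) :
    ∃ φ : K →+* B, ∀ g : SL(2, K), ρ g = (g : Matrix (Fin 2) (Fin 2) K).map φ := by
  have add2 : ∀ x : B, x + x = 0 := fun x => by rw [← two_mul, h2, zero_mul]
  have cancel : ∀ {x y : B}, x + y = 0 → x = y := fun {x y} h => by
    have := congrArg (· + y) h
    simpa [add_assoc, add2] using this
  set α : K → B := fun a => ρ (upper a) 0 0 with hα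
  set β : K → B := fun a => ρ (upper a) 0 1 with hβ
  -- the shape of `ρ (upper a)`
  have hU : ∀ a, ρ (upper a) = !![α a, β a; 0, α a] := fun a => by
    have h := congrArg ρ (show upper a * upper 1 = upper 1 * upper a by
      rw [← upper_add, ← upper_add, add_comm])
    rw [map_mul, map_mul, hu] at h
    have h00 := congrFun (congrFun h 0) 0
    have h01 := congrFun (congrFun h 0) 1
    simp [Matrix.mul_apply, Fin.sum_univ_two] at h00 h01
    ext i j
    fin_cases i <;> fin_cases j
    · rfl
    · rfl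
    · simpa using h00
    · show ρ (upper a) 1 1 = α a
      rw [hα]
      rw [add_comm] at h01
      exact (add_left_cancel h01).symm
  have hW : ρ (weyl (K := K)) = !![0, 1; 1, 0] := by
    rw [weyl, map_mul, map_mul, hu, hl]
    ext i j
    fin_cases i <;> fin_cases j <;> simp [Matrix.mul_apply, Fin.sum_univ_two, add2]
  have hL : ∀ a, ρ (lower a) = !![α a, 0; β a, α a] := fun a => by
    rw [← weyl_conj, map_mul, map_mul, hW, hU]
    ext i j
    fin_cases i <;> fin_cases j <;> simp [Matrix.mul_apply, Fin.sum_univ_two]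
  -- addition
  have hadd : ∀ a b, α (a + b) = α a * α b ∧ β (a + b) = α a * β b + β a * α b := fun a b => by
    have h := congrArg ρ (upper_add a b)
    rw [map_mul, hU, hU, hU] at h
    have h00 := congrFun (congrFun h 0) 0
    have h01 := congrFun (congrFun h 0) 1
    simp [Matrix.mul_apply, Fin.sum_univ_two] at h00 h01
    exact ⟨h00, h01⟩
  have h0 : α 0 = 1 ∧ β 0 = 0 := by
    have h := congrArg ρ (upper_zero (K := K))
    rw [map_one, hU] at h
    have h00 := congrFun (congrFun h 0) 0
    have h01 := congrFun (congrFun h 0) 1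
    simp at h00 h01
    exact ⟨h00, h01⟩
  have h1 : α 1 = 1 ∧ β 1 = 1 := by simp [hα, hβ, hu]
  have hsq : ∀ a, α a * α a = 1 := fun a => by
    rw [← (hadd a a).1, CharTwo.add_self_eq_zero, h0.1]
  have hαα : ∀ a b, Commute (α a) (α b) := fun a b => by
    show α a * α b = α b * α a
    rw [← (hadd a b).1, ← (hadd b a).1, add_comm]
  have hαβ : ∀ a, α a * β a = β a * α a := fun a => cancel <| by
    rw [← (hadd a a).2, CharTwo.add_self_eq_zero, h0.2]
  -- the elements of order three
  have hpair : ∀ a : K, a ≠ 0 → β a * β a⁻¹ = 1 ∧ β a * α a⁻¹ = α a⁻¹ * β a := fun a ha => by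
    have h := h3 a ha
    rw [hU, hL] at h
    have h00 := congrFun (congrFun h 0) 0
    have h01 := congrFun (congrFun h 0) 1
    simp [Matrix.mul_apply, Fin.sum_univ_two] at h00 h01
    rw [← (hαα a a⁻¹).eq, add_right_comm, add2, zero_add] at h00
    exact ⟨h00, cancel h01⟩
  have hinv : ∀ a : K, a ≠ 0 → β a⁻¹ * β a = 1 := fun a ha => by
    simpa using (hpair a⁻¹ (inv_ne_zero ha)).1
  have hpair' : ∀ a : K, a ≠ 0 → β a⁻¹ * α a = α a * β a⁻¹ := fun a ha => by
    simpa using (hpair a⁻¹ (inv_ne_zero ha)).2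
  set δ : K → B := fun a => α a + α a⁻¹ with hδ
  have hT : ∀ a : K, a ≠ 0 → ρ (torus a) = !![β a, δ a; δ a, β a⁻¹] := fun a ha => by
    rw [torus, map_mul, map_mul, map_mul, hW, hU, hL]
    have e1 : α a * α a⁻¹ + β a * β a⁻¹ = α a * α a⁻¹ + 1 := by rw [(hpair a ha).1]
    have e2 : (α a * α a⁻¹ + 1) * β a + β a * α a⁻¹ * α a = β a := by
      rw [add_mul, one_mul, mul_assoc, ← (hpair a ha).2, ← mul_assoc, hαβ, mul_assoc, mul_assoc,
        (hαα a a⁻¹).eq, add_right_comm, add2, zero_add]
    have e3 : (α a * α a⁻¹ + 1) * α a = δ a := by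
      rw [add_mul, one_mul, mul_assoc, ← (hαα a a⁻¹).eq, ← mul_assoc, hsq, one_mul, add_comm]
    have e4 : α a * β a⁻¹ * α a = β a⁻¹ := by
      rw [← hpair' a ha, mul_assoc, hsq, mul_one]
    have e5 : α a * β a⁻¹ * β a + α a * α a⁻¹ * α a = δ a := by
      rw [mul_assoc, hinv a ha, mul_one, mul_assoc, ← (hαα a a⁻¹).eq, ← mul_assoc, hsq, one_mul]
    ext i j
    fin_cases i <;> fin_cases j <;>
      simp [Matrix.mul_apply, Fin.sum_univ_two, e1, e2, e3, e4, e5]
  have hconj : ∀ a c : K, a ≠ 0 → β (a * a * c) = β a * β c * β a ∧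
      α (a * a * c) = δ a * β c * β a + β a⁻¹ * α c * β a := fun a c ha => by
    have h := congrArg ρ (torus_upper ha c)
    rw [map_mul, map_mul, hT a ha, hU, hU] at h
    have h01 := congrFun (congrFun h 0) 1
    have h10 := congrFun (congrFun h 1) 0
    have h11 := congrFun (congrFun h 1) 1
    simp [Matrix.mul_apply, Fin.sum_univ_two] at h01 h10 h11
    rw [← h10, add_comm (β a * β c)] at h01
    refine ⟨?_, ?_⟩
    · rw [add_left_cancel h01, mul_assoc (β (a * a * c)), hinv a ha, mul_one]
    · rw [← add_mul, h11, mul_assoc (α (a * a * c)), hinv a ha, mul_one]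
  -- powers of a generator
  obtain ⟨g, hg⟩ := IsCyclic.exists_monoid_generator (α := Kˣ)
  have hg0 : (g : K) ≠ 0 := g.ne_zero
  have hgpow : ∀ a : K, a ≠ 0 → ∃ k : ℕ, a = (g : K) ^ k := fun a ha => by
    obtain ⟨k, hk⟩ := (Submonoid.mem_powers_iff _ _).1 (hg (Units.mk0 a ha))
    exact ⟨k, by simpa using (congrArg Units.val hk).symm⟩
  have hpow : ∀ k : ℕ, β ((g : K) ^ k) = β g ^ k := by
    intro k
    induction k using Nat.twoStepInduction with
    | zero => simp [h1.2]
    | one => simp
    | more k ih _ =>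
      rw [show (g : K) ^ (k + 2) = g * g * g ^ k by ring, (hconj g _ hg0).1, ih, ← pow_succ',
        ← pow_succ]
  have hββ : ∀ a b, Commute (β a) (β b) := fun a b => by
    by_cases ha : a = 0
    · rw [ha, h0.2]; exact Commute.zero_left _
    by_cases hb : b = 0
    · rw [hb, h0.2]; exact Commute.zero_right _
    obtain ⟨i, rfl⟩ := hgpow a ha
    obtain ⟨j, rfl⟩ := hgpow b hb
    rw [hpow, hpow]
    exact Commute.pow_pow_self _ i j
  have hmul : ∀ a b, β (a * b) = β a * β b := fun a b => by
    by_cases ha : a = 0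
    · rw [ha, zero_mul, h0.2, zero_mul]
    by_cases hb : b = 0
    · rw [hb, mul_zero, h0.2, mul_zero]
    obtain ⟨i, rfl⟩ := hgpow a ha
    obtain ⟨j, rfl⟩ := hgpow b hb
    rw [← pow_add, hpow, hpow, hpow, pow_add]
  have hdg : Commute (δ g) (β g) := (show Commute (α g) (β g) from hαβ g).add_left
    (hpair g hg0).2.symm
  have hαg : ∀ k : ℕ, Commute (α ((g : K) ^ k)) (β g) := by
    intro k
    induction k using Nat.twoStepInduction with
    | zero => rw [pow_zero, h1.1]; exact Commute.one_left _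
    | one => rw [pow_one]; exact hαβ g
    | more k ih _ =>
      rw [show (g : K) ^ (k + 2) = g * g * g ^ k by ring, (hconj g _ hg0).2]
      exact ((hdg.mul_left (hββ _ _)).mul_left (Commute.refl _)).add_left
        (((hββ _ _).mul_left ih).mul_left (Commute.refl _))
  have hαβ' : ∀ a b, Commute (α a) (β b) := fun a b => by
    by_cases hb : b = 0
    · rw [hb, h0.2]; exact Commute.zero_right _
    obtain ⟨j, rfl⟩ := hgpow b hb
    rw [hpow]
    refine Commute.pow_right ?_ j
    by_cases ha : a = 0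
    · rw [ha, h0.1]; exact Commute.one_left _
    obtain ⟨i, rfl⟩ := hgpow a ha
    exact hαg i
  -- a square root for every element
  have : Fintype K := Fintype.ofFinite K
  have hsqrt : ∀ b : K, ∃ a : K, b = a * a := fun b => by
    obtain ⟨a, ha⟩ := (FiniteField.isSquare_of_char_two (ringChar.eq K 2) b)
    exact ⟨a, ha⟩
  have hη : ∀ b c : K, b ≠ 0 → α (b * c) = α c + (α b + 1) * β c := fun b c hb => by
    obtain ⟨a, rfl⟩ := hsqrt b
    have ha : a ≠ 0 := fun e => hb (by rw [e, zero_mul])
    have hd := (hconj a 1 ha).2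
    rw [mul_one, h1.2, h1.1, mul_one, mul_one, hinv a ha] at hd
    have e : β a⁻¹ * α c * β a = α c := by
      rw [mul_assoc, (hαβ' c a).eq, ← mul_assoc, hinv a ha, one_mul]
    rw [(hconj a c ha).2, e, hd, add_assoc (δ a * β a), add2, add_zero, mul_assoc (δ a),
      (hββ c a).eq, ← mul_assoc, add_comm]
  have hsym : ∀ b c : K, b ≠ 0 → c ≠ 0 → (α b + 1) * (β c + 1) = (α c + 1) * (β b + 1) :=
    fun b c hb hc => by
      have h := hη b c hb
      rw [mul_comm b c, hη c b hc] at h
      refine cancel ?_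
      calc (α b + 1) * (β c + 1) + (α c + 1) * (β b + 1)
          = (α c + (α b + 1) * β c) + (α b + (α c + 1) * β b) + (1 + 1) := by
            rw [mul_add, mul_one, mul_add, mul_one]; abel
        _ = 0 := by rw [← h, add2, add2, add_zero]
  -- the diagonal part is trivial
  classical
  obtain ⟨e, he1, he⟩ : ∃ e : K, e ≠ 0 ∧ e ≠ 1 := by
    by_contra hcon
    push Not at hcon
    have hsub : (Finset.univ : Finset K) ⊆ {0, 1} := fun x _ => by
      by_cases hx : x = 0
      · simp [hx]
      · simp [hcon x hx]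
    have := (Finset.card_le_card hsub).trans Finset.card_le_two
    rw [Finset.card_univ, ← Nat.card_eq_fintype_card] at this
    omega
  have he' : e + 1 ≠ 0 := fun h => he (CharTwo.add_eq_zero.1 h)
  obtain ⟨η, hη'⟩ : ∃ η, η = α e + 1 := ⟨_, rfl⟩
  have hηη : η * η = 0 := by
    rw [hη', mul_add, add_mul, hsq, one_mul, mul_one,
      show (1 : B) + α e + (α e + 1) = (α e + α e) + (1 + 1) by abel, add2, add2, add_zero]
  have hb1 : β (e + 1) = β e + 1 + η := by
    rw [(hadd e 1).2, h1.1, h1.2, mul_one, mul_one, hη',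
      show β e + 1 + (α e + 1) = α e + β e + (1 + 1) by abel, add2, add_zero]
  obtain ⟨v, hv⟩ : ∃ v, v = β (e + 1)⁻¹ := ⟨_, rfl⟩
  have hcv : Commute η v := by rw [hη', hv]; exact (hαβ' e _).add_left (Commute.one_left _)
  have hinv' : (β e + 1) * (v + v * η * v) = 1 := by
    have h1' : β (e + 1) * v = 1 := by rw [hv]; exact (hpair _ he').1
    have : β e + 1 = β (e + 1) + η := by rw [hb1, add_assoc, add2, add_zero]
    rw [this, add_mul, mul_add, mul_add, h1', ← mul_assoc (β (e + 1)), ← mul_assoc (β (e + 1)), h1',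
      one_mul, ← mul_assoc η, ← mul_assoc η, hcv.eq, mul_assoc v η η, hηη, mul_zero, zero_mul,
      add_zero, ← hcv.eq, add_assoc, add2, add_zero]
  obtain ⟨k, hk'⟩ : ∃ k, k = η * (v + v * η * v) := ⟨_, rfl⟩
  have hk : ∀ b : K, b ≠ 0 → α b + 1 = k * (β b + 1) := fun b hb => by
    have hc : Commute (β b + 1) (v + v * η * v) := by
      have h1 : Commute (β b + 1) v := by rw [hv]; exact (hββ b _).add_left (Commute.one_left _)
      have h2 : Commute (β b + 1) η := by
        rw [hη']
        exact ((hαβ' e b).symm.add_left (Commute.one_left _)).add_right (Commute.one_right _)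
      exact h1.add_right ((h1.mul_right h2).mul_right h1)
    calc α b + 1 = (α b + 1) * ((β e + 1) * (v + v * η * v)) := by rw [hinv', mul_one]
      _ = η * (β b + 1) * (v + v * η * v) := by rw [← mul_assoc, hsym b e hb he1, hη']
      _ = k * (β b + 1) := by rw [hk', mul_assoc, hc.eq, ← mul_assoc]
  have hk0 : k = 0 := by
    have h1' : α (e + 1) + 1 = η := by rw [(hadd e 1).1, h1.1, mul_one, hη']
    rw [hk _ he', hb1] at h1'
    have h2' : k * (β e + 1) = η := by rw [hη']; exact (hk e he1).symm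
    have : k * (η + 1) = 0 := by
      have h3' : k * (β e + 1 + η + 1) + k * (β e + 1) = 0 := by rw [h1', h2', add2]
      rw [← mul_add, show β e + 1 + η + 1 + (β e + 1) = (η + 1) + ((β e + 1) + (β e + 1)) by abel,
        add2, add_zero] at h3'
      exact h3'
    have h4 := congrArg (· * α e) this
    simp only [zero_mul] at h4
    rwa [hη', add_assoc, add2, add_zero, mul_assoc, hsq, mul_one] at h4
  have hα1 : ∀ a, α a = 1 := fun a => by
    by_cases ha : a = 0
    · rw [ha, h0.1]
    · exact cancel (by rw [hk a ha, hk0, zero_mul])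
  let φ : K →+* B :=
    { toFun := β
      map_one' := h1.2
      map_mul' := hmul
      map_zero' := h0.2
      map_add' := fun a b => by rw [(hadd a b).2, hα1, hα1, one_mul, mul_one, add_comm] }
  refine ⟨φ, fun g => mul_eq_induction g (P := fun g => ρ g = (g : Matrix (Fin 2) (Fin 2) K).map φ)
    (fun a => ?_) (fun a => ?_) (fun x y hx hy => ?_)⟩
  · rw [hU, hα1]
    ext i j
    fin_cases i <;> fin_cases j <;> simp [φ, h0.2, h1.2]
  · rw [hL, hα1]
    ext i j
    fin_cases i <;> fin_cases j <;> simp [φ, h0.2, h1.2]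
  · rw [map_mul, hx, hy, coe_mul, Matrix.map_mul]

/-- A homomorphism satisfying `X² + X + 1 = 0` on the elements of order three extends. -/
theorem exists_ringHom [Finite K] [CharP K 2] (hK : 4 ≤ Nat.card K) {R : Type*} [Ring R]
    (h2 : (2 : R) = 0) (ρ : SL(2, K) →* R)
    (h3 : ∀ a : K, a ≠ 0 →
      ρ (upper a * lower a⁻¹) * ρ (upper a * lower a⁻¹) + ρ (upper a * lower a⁻¹) + 1 = 0) :
    ∃ Φ : Matrix (Fin 2) (Fin 2) K →+* R,
      ∀ g : SL(2, K), Φ (g : Matrix (Fin 2) (Fin 2) K) = ρ g := by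
  have add2 : ∀ x : R, x + x = 0 := fun x => by rw [← two_mul, h2, zero_mul]
  have cancel : ∀ {x y : R}, x + y = 0 → x = y := fun {x y} h => by
    have := congrArg (· + y) h
    simpa [add_assoc, add2] using this
  have hpair : ∀ a : K, a ≠ 0 →
      ρ (upper a) * ρ (lower a⁻¹) + ρ (lower a⁻¹) * ρ (upper a) = 1 := fun a ha => by
    have hi : ρ (lower a⁻¹ * upper a) * ρ (upper a * lower a⁻¹) = 1 := by
      rw [← map_mul, lower_mul_upper ha, map_one]
    have h := congrArg (fun z => ρ (lower a⁻¹ * upper a) * z) (h3 a ha)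
    simp only [mul_add, ← mul_assoc, hi, one_mul, mul_one, mul_zero] at h
    refine cancel ?_
    rw [← map_mul, ← map_mul, ← h]
    abel
  set N := ρ (upper 1) + 1 with hN
  set P := ρ (lower 1) + 1 with hP
  have sq : ∀ g : SL(2, K), g * g = 1 → (ρ g + 1) * (ρ g + 1) = 0 := fun g hg => by
    rw [mul_add, add_mul, ← map_mul, hg, map_one, one_mul, mul_one,
      show (1 : R) + ρ g + (ρ g + 1) = (1 + 1) + (ρ g + ρ g) by abel, add2, add2, add_zero]
  have hNN : N * N = 0 := sq _ (by rw [← upper_add, CharTwo.add_self_eq_zero, upper_zero])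
  have hPP : P * P = 0 := sq _ (by
    ext i j
    fin_cases i <;> fin_cases j <;>
      simp [Matrix.mul_apply, Fin.sum_univ_two, CharTwo.add_self_eq_zero])
  have hNP : N * P + P * N = 1 := by
    have h := hpair 1 one_ne_zero
    rw [inv_one] at h
    calc N * P + P * N
        = (ρ (upper 1) * ρ (lower 1) + ρ (lower 1) * ρ (upper 1)) + (ρ (upper 1) + ρ (upper 1)) +
          ((ρ (lower 1) + ρ (lower 1)) + (1 + 1)) := by
          rw [hN, hP]
          simp only [add_mul, mul_add, one_mul, mul_one]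
          abel
      _ = 1 := by rw [h, add2, add2, add2, add_zero, add_zero, add_zero]
  obtain ⟨Ψ, hΨ⟩ := exists_matrix_equiv hNN hPP hNP
  have h2B : (2 : coeffRing N P) = 0 := Subtype.ext h2
  let σ : SL(2, K) →* Matrix (Fin 2) (Fin 2) (coeffRing N P) :=
    Ψ.symm.toRingHom.toMonoidHom.comp ρ
  have hσ : ∀ g, σ g = Ψ.symm (ρ g) := fun g => rfl
  have hu : σ (upper 1) = !![1, 1; 0, 1] := by
    rw [hσ, RingEquiv.symm_apply_eq, hΨ]
    simp [ofMatrix]
    rw [add_right_comm, hNP, hN, add_comm (ρ (upper 1)), ← add_assoc, add2, zero_add]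
  have hl : σ (lower 1) = !![1, 0; 1, 1] := by
    rw [hσ, RingEquiv.symm_apply_eq, hΨ]
    simp [ofMatrix]
    rw [add_right_comm, hNP, hP, add_comm (ρ (lower 1)), ← add_assoc, add2, zero_add]
  obtain ⟨φ, hφ⟩ := exists_ringHom_aux hK h2B σ hu hl fun a ha => by
    have := congrArg Ψ.symm (hpair a ha)
    rw [map_add, map_mul, map_mul, map_one] at this
    exact this
  exact ⟨Ψ.toRingHom.comp φ.mapMatrix, fun g => by
    show Ψ ((g : Matrix (Fin 2) (Fin 2) K).map φ) = ρ g
    rw [← hφ, hσ, RingEquiv.apply_symm_apply]⟩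

end Cfsg.Agent.NaturalSL2
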