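import Cfsg.Agent.NaturalSL2.Action
import Cfsg.Agent.PGroup.Basic
import Mathlib.RingTheory.SimpleRing.Matrix

/-!
A normal 2-subgroup with quotient `SL(2, 2ⁿ)` on which an element of order three acts without fixed
points is elementary abelian.
-/

set_option autoImplicit false

namespace Cfsg.Agent.NaturalSL2

open Matrix.SpecialLinearGroup
open scoped MatrixGroups IsMulCommutative commutatorElement

variable {G : Type*} [Group G]

/-- The identities satisfied by a fixed-point-free automorphism of order three. -/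
structure IsThreeAction (Q : Subgroup G) (y : G) : Prop where
  prod_eq : ∀ q ∈ Q, q * (y * q * y⁻¹) * (y * y * q * y⁻¹ * y⁻¹) = 1
  comm : ∀ q ∈ Q, q * (y * q * y⁻¹) = y * q * y⁻¹ * q

theorem isThreeAction_of_fpf (Q : Subgroup G) [Q.Normal] [Finite G] {y : G} (hy : y * y * y = 1)
    (hfix : ∀ q ∈ Q, y * q * y⁻¹ = q → q = 1) : IsThreeAction Q y := by
  have key : ∀ z : G, z * z * z = 1 → (∀ q ∈ Q, z * q * z⁻¹ = q → q = 1) →
      ∀ q ∈ Q, q * (z * q * z⁻¹) * (z * z * q * z⁻¹ * z⁻¹) = 1 := by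
    intro z hz hfz q hq
    let f : Q → Q := fun s => ⟨(s : G)⁻¹ * (z * s * z⁻¹),
      Q.mul_mem (Q.inv_mem s.2) (Subgroup.Normal.conj_mem ‹Q.Normal› _ s.2 z)⟩
    have hf : Function.Injective f := fun s t h => by
      have h' : (s : G)⁻¹ * (z * s * z⁻¹) = (t : G)⁻¹ * (z * t * z⁻¹) := congrArg Subtype.val h
      have : z * ((t : G) * (s : G)⁻¹) * z⁻¹ = (t : G) * (s : G)⁻¹ :=
        calc z * ((t : G) * (s : G)⁻¹) * z⁻¹ = (z * t * z⁻¹) * (z * s * z⁻¹)⁻¹ := by group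
          _ = (t : G) * ((t : G)⁻¹ * (z * t * z⁻¹)) * (z * s * z⁻¹)⁻¹ := by group
          _ = (t : G) * ((s : G)⁻¹ * (z * s * z⁻¹)) * (z * s * z⁻¹)⁻¹ := by rw [h']
          _ = (t : G) * (s : G)⁻¹ := by group
      have := hfz _ (Q.mul_mem t.2 (Q.inv_mem s.2)) this
      exact Subtype.ext (mul_inv_eq_one.1 this).symm
    obtain ⟨⟨s, hs⟩, h⟩ := Finite.injective_iff_surjective.1 hf ⟨q, hq⟩
    have e : q = s⁻¹ * (z * s * z⁻¹) := (congrArg Subtype.val h).symm
    have hz3 : z * z * z * s * z⁻¹ * z⁻¹ * z⁻¹ = s := by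
      rw [hz, one_mul, mul_assoc, mul_assoc, ← mul_inv_rev, ← mul_inv_rev, hz, inv_one, mul_one]
    calc q * (z * q * z⁻¹) * (z * z * q * z⁻¹ * z⁻¹)
        = s⁻¹ * (z * z * z * s * z⁻¹ * z⁻¹ * z⁻¹) := by rw [e]; group
      _ = 1 := by rw [hz3, inv_mul_cancel]
  have hyy : y * y = y⁻¹ := eq_inv_of_mul_eq_one_left hy
  have hyi : y⁻¹ * y⁻¹ = y := by rw [← hyy, ← mul_assoc, hy, one_mul]
  have h1 := key y hy hfix
  have h2 := key y⁻¹ (by rw [hyi, mul_inv_cancel]) fun q hq h => hfix q hq (by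
    calc y * q * y⁻¹ = y * (y⁻¹ * q * y⁻¹⁻¹) * y⁻¹ := by rw [h]
      _ = q := by group)
  refine ⟨h1, fun q hq => ?_⟩
  have hc : ∀ s ∈ Q, y * s * y⁻¹ * (y⁻¹ * s * y) = y⁻¹ * s * y * (y * s * y⁻¹) := fun s hs => by
    have e1 := h1 s hs
    have e2 := h2 s hs
    have a1 : y * y * s * y⁻¹ * y⁻¹ = y⁻¹ * s * y := by rw [mul_assoc _ y⁻¹, hyy, hyi]
    have a2 : y⁻¹ * y⁻¹ * s * y⁻¹⁻¹ * y⁻¹⁻¹ = y * s * y⁻¹ := by
      rw [inv_inv, mul_assoc _ y, hyy, hyi]
    rw [a1, mul_assoc] at e1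
    rw [a2, inv_inv, mul_assoc] at e2
    exact mul_left_cancel (e1.trans e2.symm)
  have := hc (y⁻¹ * q * y) (by simpa using Subgroup.Normal.conj_mem ‹Q.Normal› q hq y⁻¹)
  have e : y⁻¹ * (y⁻¹ * q * y) * y = y * q * y⁻¹ := by
    calc y⁻¹ * (y⁻¹ * q * y) * y = (y⁻¹ * y⁻¹) * q * (y * y) := by group
      _ = y * q * y⁻¹ := by rw [hyi, hyy]
  rw [e, show y * (y⁻¹ * q * y) * y⁻¹ = q by group] at this
  exact this

theorem IsThreeAction.map {Q : Subgroup G} {y : G} (h : IsThreeAction Q y) {H : Type*} [Group H]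
    (f : G →* H) : IsThreeAction (Q.map f) (f y) := by
  refine ⟨?_, ?_⟩ <;> rintro _ ⟨q, hq, rfl⟩
  · simpa using congrArg f (h.prod_eq q hq)
  · simpa using congrArg f (h.comm q hq)

theorem IsThreeAction.mono {Q A : Subgroup G} {y : G} (h : IsThreeAction Q y) (hA : A ≤ Q) :
    IsThreeAction A y :=
  ⟨fun q hq => h.prod_eq q (hA hq), fun q hq => h.comm q (hA hq)⟩

/-- Automorphisms as endomorphisms. -/
noncomputable def autEnd (A : Subgroup G) [IsMulCommutative A] :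
    MulAut A →* AddMonoid.End (Additive A) where
  toFun e := MonoidHom.toAdditive e.toMonoidHom
  map_one' := AddMonoidHom.ext fun v => rfl
  map_mul' e e' := AddMonoidHom.ext fun v => rfl

/-- The action by conjugation on an abelian normal subgroup. -/
noncomputable def conjEnd (A : Subgroup G) [A.Normal] [IsMulCommutative A] :
    G →* AddMonoid.End (Additive A) :=
  (autEnd A).comp MulAut.conjNormal

theorem coe_conjEnd (A : Subgroup G) [A.Normal] [IsMulCommutative A] (g : G) (v : Additive A) :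
    ((Additive.toMul (conjEnd A g v) : A) : G) = g * (Additive.toMul v : A) * g⁻¹ :=
  MulAut.conjNormal_apply g _

variable {K : Type*} [Field K] [CharP K 2]

/-- The action factors through the quotient and extends to the matrices. -/
theorem exists_action [Finite K] (hK : 4 ≤ Nat.card K) (π : G →* SL(2, K))
    (hπ : Function.Surjective π) (A : Subgroup G) [A.Normal] [IsMulCommutative A]
    (hker : ∀ g ∈ π.ker, ∀ a ∈ A, g * a = a * g)
    (hY : ∀ a : K, a ≠ 0 → ∃ y, π y = upper a * lower a⁻¹ ∧ IsThreeAction A y)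
    (hA : ∀ a ∈ A, a ^ 4 = 1) :
    (∀ a ∈ A, a ^ 2 = 1) ∧ ∃ Φ : Matrix (Fin 2) (Fin 2) K →+* AddMonoid.End (Additive A),
      ∀ g : G, Φ (π g : Matrix (Fin 2) (Fin 2) K) = conjEnd A g := by
  let ρ₀ : SL(2, K) →* MulAut A := π.liftOfSurjective hπ ⟨MulAut.conjNormal, fun g hg => by
    refine MulEquiv.ext fun v => Subtype.ext ?_
    rw [MulAut.conjNormal_apply, hker g hg _ v.2, mul_inv_cancel_right]
    rfl⟩
  let ρ : SL(2, K) →* AddMonoid.End (Additive A) := (autEnd A).comp ρ₀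
  have hρ : ∀ g, ρ (π g) = conjEnd A g := fun g =>
    congrArg (autEnd A) (MonoidHom.liftOfRightInverse_comp_apply _ _ _ _ g)
  have h3 : ∀ a : K, a ≠ 0 →
      ρ (upper a * lower a⁻¹) * ρ (upper a * lower a⁻¹) + ρ (upper a * lower a⁻¹) + 1 = 0 := by
    intro a ha
    obtain ⟨y, hy, hy3⟩ := hY a ha
    rw [← hy, hρ]
    refine AddMonoidHom.ext fun v => ?_
    have e : Additive.toMul v * Additive.toMul (conjEnd A y v) *
        Additive.toMul (conjEnd A y (conjEnd A y v)) = 1 := by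
      refine Subtype.ext ?_
      simp only [Subgroup.coe_mul, coe_conjEnd, Subgroup.coe_one]
      simpa [mul_assoc] using hy3.prod_eq _ (Additive.toMul v).2
    show conjEnd A y (conjEnd A y v) + conjEnd A y v + v = 0
    calc conjEnd A y (conjEnd A y v) + conjEnd A y v + v
        = v + conjEnd A y v + conjEnd A y (conjEnd A y v) := by abel
      _ = 0 := congrArg Additive.ofMul e
  have h4 : (4 : AddMonoid.End (Additive A)) = 0 := by
    rw [show (4 : AddMonoid.End (Additive A)) = 1 + 1 + 1 + 1 by norm_num]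
    refine AddMonoidHom.ext fun v => Additive.toMul.injective (Subtype.ext ?_)
    show ((Additive.toMul v : A) : G) * (Additive.toMul v : A) * (Additive.toMul v : A) *
      (Additive.toMul v : A) = 1
    rw [← hA _ (Additive.toMul v).2]
    simp [pow_succ]
  have h2 := two_eq_zero hK h4 ρ h3
  obtain ⟨Φ, hΦ⟩ := exists_ringHom hK h2 ρ h3
  refine ⟨fun a ha => ?_, Φ, fun g => by rw [hΦ, hρ]⟩
  have h2' : (1 : AddMonoid.End (Additive A)) + 1 = 0 := by rw [one_add_one_eq_two, h2]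
  have h := congrArg (fun f : AddMonoid.End (Additive A) => f (Additive.ofMul ⟨a, ha⟩)) h2'
  rw [pow_two]
  exact congrArg Subtype.val (congrArg Additive.toMul h)

/-- Lifts of all the elements of trace one act without fixed points. -/
theorem exists_isThreeAction [Finite G] [Finite K] (Q : Subgroup G) [Q.Normal] (π : G →* SL(2, K))
    (hπ : Function.Surjective π) {x : G} (hx : x * x * x = 1) (hx1 : π x ≠ 1)
    (hfix : ∀ q ∈ Q, x * q * x⁻¹ = q → q = 1) {a : K} (ha : a ≠ 0) :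
    ∃ y, π y = upper a * lower a⁻¹ ∧ IsThreeAction Q y := by
  have hx3 : π x ^ 3 = 1 := by rw [← map_pow, pow_succ, pow_two, hx, map_one]
  obtain ⟨P, hP⟩ := exists_conj_eq (trace_eq_one hx3 hx1)
  obtain ⟨P', hP'⟩ := exists_conj_eq (M := upper a * lower a⁻¹) (by
    simp [Matrix.mul_apply, Fin.sum_univ_two, ha, CharTwo.add_self_eq_zero])
  obtain ⟨g, hg⟩ := hπ (P' * P⁻¹)
  refine ⟨g * x * g⁻¹, ?_, isThreeAction_of_fpf Q ?_ fun q hq h => ?_⟩
  · rw [map_mul, map_mul, map_inv, hg, mul_inv_rev, inv_inv]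
    calc P' * P⁻¹ * π x * (P * P'⁻¹) = P' * (P⁻¹ * (π x * P)) * P'⁻¹ := by group
      _ = (P' * (upper 1 * lower 1)) * P'⁻¹ := by rw [hP, inv_mul_cancel_left]
      _ = upper a * lower a⁻¹ := by rw [← hP', mul_inv_cancel_right]
  · calc g * x * g⁻¹ * (g * x * g⁻¹) * (g * x * g⁻¹) = g * (x * x * x) * g⁻¹ := by group
      _ = 1 := by rw [hx, mul_one, mul_inv_cancel]
  · have hq' : g⁻¹ * q * g ∈ Q := by simpa using Subgroup.Normal.conj_mem ‹Q.Normal› q hq g⁻¹
    have := hfix _ hq' (by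
      calc x * (g⁻¹ * q * g) * x⁻¹ = g⁻¹ * (g * x * g⁻¹ * q * (g * x * g⁻¹)⁻¹) * g := by group
        _ = g⁻¹ * q * g := by rw [h])
    calc q = g * (g⁻¹ * q * g) * g⁻¹ := by group
      _ = 1 := by rw [this, mul_one, mul_inv_cancel]

/-- If the commutator subgroup is central of exponent two, it is trivial. -/
theorem commutator_eq_bot_of_central [Finite K] (hK : 4 ≤ Nat.card K) (π : G →* SL(2, K))
    (hπ : Function.Surjective π) (Q : Subgroup G) [Q.Normal] (hker : π.ker ≤ Q)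
    (hY : ∀ a : K, a ≠ 0 → ∃ y, π y = upper a * lower a⁻¹ ∧ IsThreeAction Q y)
    (hcent : ∀ d ∈ ⁅Q, Q⁆, ∀ q ∈ Q, q * d = d * q) (h2 : ∀ d ∈ ⁅Q, Q⁆, d * d = 1) :
    ⁅Q, Q⁆ = ⊥ := by
  set D := ⁅Q, Q⁆ with hD
  have hDQ : D ≤ Q := Subgroup.commutator_le_self Q
  have hcD : ∀ u ∈ Q, ∀ v ∈ Q, ⁅u, v⁆ ∈ D := fun u hu v hv => Subgroup.commutator_mem_commutator hu hv
  have hcomm : ∀ d ∈ D, ∀ d' ∈ D, d * d' = d' * d := fun d hd d' hd' => hcent d' hd' d (hDQ hd)
  have inv2 : ∀ d ∈ D, d⁻¹ = d := fun d hd => inv_eq_of_mul_eq_one_right (h2 d hd)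
  -- bilinearity
  have sym : ∀ u ∈ Q, ∀ v ∈ Q, ⁅u, v⁆ = ⁅v, u⁆ := fun u hu v hv => by
    rw [← commutatorElement_inv, inv2 _ (hcD v hv u hu)]
  have addl : ∀ u ∈ Q, ∀ u' ∈ Q, ∀ v ∈ Q, ⁅u * u', v⁆ = ⁅u, v⁆ * ⁅u', v⁆ :=
    fun u hu u' hu' v hv => by
      have : ⁅u * u', v⁆ = u * ⁅u', v⁆ * u⁻¹ * ⁅u, v⁆ := by
        simp only [commutatorElement_def]; group
      rw [this, hcent _ (hcD u' hu' v hv) u hu, mul_inv_cancel_right,
        hcomm _ (hcD u' hu' v hv) _ (hcD u hu v hv)]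
  have addr : ∀ u ∈ Q, ∀ v ∈ Q, ∀ v' ∈ Q, ⁅u, v * v'⁆ = ⁅u, v⁆ * ⁅u, v'⁆ :=
    fun u hu v hv v' hv' => by
      rw [sym u hu _ (Q.mul_mem hv hv'), addl v hv v' hv' u hu, sym v hv u hu, sym v' hv' u hu]
  have invr : ∀ u ∈ Q, ∀ v ∈ Q, ⁅u, v⁻¹⁆ = ⁅u, v⁆ := fun u hu v hv => by
    have h := addr u hu v⁻¹ (Q.inv_mem hv) v hv
    rw [inv_mul_cancel, commutatorElement_one_right] at h
    rw [eq_inv_of_mul_eq_one_left h.symm, inv2 _ (hcD u hu v hv)]
  have conjmem : ∀ y : G, ∀ u ∈ Q, y * u * y⁻¹ ∈ Q := fun y u hu =>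
    Subgroup.Normal.conj_mem ‹Q.Normal› u hu y
  have twist : ∀ y, IsThreeAction Q y → ∀ u ∈ Q, ∀ v ∈ Q,
      ⁅u, y * v * y⁻¹⁆ = ⁅y * u * y⁻¹, v⁆ ∧
      ⁅u, y * v * y⁻¹⁆ = ⁅u, v⁆ * (y * ⁅u, v⁆ * y⁻¹) := by
    intro y hy
    have self : ∀ u ∈ Q, ⁅u, y * u * y⁻¹⁆ = 1 := fun u hu =>
      commutatorElement_eq_one_iff_mul_comm.2 (hy.comm u hu)
    have swap : ∀ u ∈ Q, ∀ v ∈ Q, ⁅u, y * v * y⁻¹⁆ = ⁅y * u * y⁻¹, v⁆ := fun u hu v hv => by
      have h := self _ (Q.mul_mem hu hv)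
      rw [show y * (u * v) * y⁻¹ = y * u * y⁻¹ * (y * v * y⁻¹) by group,
        addl u hu v hv _ (Q.mul_mem (conjmem y u hu) (conjmem y v hv)),
        addr u hu _ (conjmem y u hu) _ (conjmem y v hv),
        addr v hv _ (conjmem y u hu) _ (conjmem y v hv), self u hu, self v hv, one_mul, mul_one] at h
      rw [eq_inv_of_mul_eq_one_left h, inv2 _ (hcD v hv _ (conjmem y u hu)),
        sym v hv _ (conjmem y u hu)]
    intro u hu v hv
    refine ⟨swap u hu v hv, ?_⟩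
    have hvv : y * (y * v * y⁻¹) * y⁻¹ = (v * (y * v * y⁻¹))⁻¹ := by
      rw [eq_inv_iff_mul_eq_one]
      have h := hy.prod_eq v hv
      rw [show y * y * v * y⁻¹ * y⁻¹ = y * (y * v * y⁻¹) * y⁻¹ by group] at h
      rwa [mul_eq_one_comm]
    have h := swap u hu _ (conjmem y v hv)
    rw [hvv, invr u hu _ (Q.mul_mem hv (conjmem y v hv)), addr u hu v hv _ (conjmem y v hv),
      show ⁅y * u * y⁻¹, y * v * y⁻¹⁆ = y * ⁅u, v⁆ * y⁻¹ by
        simp only [commutatorElement_def]; group] at h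
    rw [← h, ← mul_assoc, h2 _ (hcD u hu v hv), one_mul]
  -- two such elements commute on `D`
  have key : ∀ y, IsThreeAction Q y → ∀ z, IsThreeAction Q z →
      ∀ d ∈ D, y * z * d * (y * z)⁻¹ = z * y * d * (z * y)⁻¹ := by
    intro y hy z hz
    suffices D ≤ Subgroup.centralizer ({(z * y)⁻¹ * (y * z)} : Set G) by
      intro d hd
      have h := Subgroup.mem_centralizer_iff.1 (this hd) _ (Set.mem_singleton _)
      calc y * z * d * (y * z)⁻¹ = z * y * ((z * y)⁻¹ * (y * z) * d) * (y * z)⁻¹ := by group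
        _ = z * y * d * (z * y)⁻¹ := by rw [h]; group
    refine Subgroup.commutator_le.2 fun u hu v hv =>
      Subgroup.mem_centralizer_iff.2 fun w hw => ?_
    rw [Set.mem_singleton_iff] at hw
    subst hw
    obtain ⟨e1, e2⟩ := twist y hy u hu (z * v * z⁻¹) (conjmem z v hv)
    rw [e1, (twist z hz (y * u * y⁻¹) (conjmem y u hu) v hv).2, ← (twist y hy u hu v hv).1,
      (twist y hy u hu v hv).2, (twist z hz u hu v hv).2] at e2
    generalize hc' : ⁅u, v⁆ = c at e2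
    have hc : c ∈ D := hc' ▸ hcD u hu v hv
    have hconj : ∀ w : G, ∀ d ∈ D, w * d * w⁻¹ ∈ D := fun w d hd =>
      Subgroup.Normal.conj_mem inferInstance d hd w
    have : y * z * c * (y * z)⁻¹ = z * y * c * (z * y)⁻¹ := by
      have l : z * (c * (y * c * y⁻¹)) * z⁻¹ = z * c * z⁻¹ * (z * y * c * (z * y)⁻¹) := by group
      have r : y * (c * (z * c * z⁻¹)) * y⁻¹ = y * c * y⁻¹ * (y * z * c * (y * z)⁻¹) := by group
      rw [l, r] at e2
      generalize hA : z * c * z⁻¹ = A at e2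
      generalize hB : y * c * y⁻¹ = B at e2
      have hAB : A * B = B * A := hA ▸ hB ▸ hcomm _ (hconj z c hc) _ (hconj y c hc)
      generalize z * y * c * (z * y)⁻¹ = C at e2 ⊢
      generalize y * z * c * (y * z)⁻¹ = C' at e2 ⊢
      simp only [mul_assoc] at e2
      have e3 := mul_left_cancel e2
      rw [← mul_assoc, ← mul_assoc] at e3
      rw [hAB] at e3
      exact (mul_left_cancel e3).symm
    calc (z * y)⁻¹ * (y * z) * c = (z * y)⁻¹ * (y * z * c * (y * z)⁻¹) * (y * z) := by group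
      _ = c * ((z * y)⁻¹ * (y * z)) := by rw [this]; group
  by_contra hbot
  have hcomm' : IsMulCommutative D :=
    ⟨⟨fun a b => Subtype.ext (hcomm _ a.2 _ b.2)⟩⟩
  obtain ⟨-, Φ, hΦ⟩ := exists_action hK π hπ D
    (fun g hg d hd => hcent d hd g (hker hg))
    (fun a ha => (hY a ha).imp fun y hy => ⟨hy.1, hy.2.mono hDQ⟩)
    (fun d hd => by rw [show 4 = 2 + 2 from rfl, pow_add, pow_two, h2 d hd, mul_one])
  have : Nontrivial (AddMonoid.End (Additive D)) := by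
    obtain ⟨⟨d, hd⟩, hd1⟩ := Subgroup.ne_bot_iff_exists_ne_one.1 hbot
    refine ⟨⟨0, 1, fun h => hd1 ?_⟩⟩
    have := congrArg (fun f : AddMonoid.End (Additive D) => f (Additive.ofMul ⟨d, hd⟩)) h
    exact (congrArg Additive.toMul this).symm
  obtain ⟨c, hc0, hc1⟩ : ∃ c : K, c ≠ 0 ∧ c ≠ 1 := by
    classical
    have : Fintype K := Fintype.ofFinite K
    by_contra hcon
    push Not at hcon
    have hsub : (Finset.univ : Finset K) ⊆ {0, 1} := fun x _ => by
      by_cases hx : x = 0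
      · simp [hx]
      · simp [hcon x hx]
    have := (Finset.card_le_card hsub).trans Finset.card_le_two
    rw [Finset.card_univ, ← Nat.card_eq_fintype_card] at this
    omega
  obtain ⟨y, hy, hy3⟩ := hY 1 one_ne_zero
  obtain ⟨z, hz, hz3⟩ := hY c hc0
  have heq : conjEnd D (y * z) = conjEnd D (z * y) := AddMonoidHom.ext fun v =>
    Additive.toMul.injective <| Subtype.ext <| by
      exact (coe_conjEnd D _ v).trans
        ((key y hy3 z hz3 _ (Additive.toMul v).2).trans (coe_conjEnd D _ v).symm)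
  rw [← hΦ, ← hΦ] at heq
  have h := congrFun (congrFun (RingHom.injective Φ heq) 0) 0
  simp [hy, hz, Matrix.mul_apply, Fin.sum_univ_two, hc0, CharTwo.add_self_eq_zero] at h
  have hsq : c * c = 1 := by
    calc c * c = c * c⁻¹ := by rw [h]
      _ = 1 := mul_inv_cancel₀ hc0
  exact hc1 ((mul_self_eq_one_iff.1 hsq).elim id fun e => by rw [e, CharTwo.neg_eq])

/-- `Q` is abelian. -/
theorem commutator_eq_bot [Finite G] [Finite K] (hK : 4 ≤ Nat.card K) (π : G →* SL(2, K))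
    (hπ : Function.Surjective π) (Q : Subgroup G) [Q.Normal] (hQ : IsPGroup 2 Q)
    (hker : π.ker = Q)
    (hY : ∀ a : K, a ≠ 0 → ∃ y, π y = upper a * lower a⁻¹ ∧ IsThreeAction Q y) :
    ⁅Q, Q⁆ = ⊥ := by
  by_contra hne
  obtain ⟨N, ⟨hNn, hNlt⟩, hmax⟩ :=
    Set.Finite.exists_maximal (s := {N : Subgroup G | N.Normal ∧ N < ⁅Q, Q⁆}) (Set.toFinite _)
      ⟨⊥, inferInstance, bot_lt_iff_ne_bot.2 hne⟩
  let f := QuotientGroup.mk' N
  have hf : Function.Surjective f := QuotientGroup.mk'_surjective N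
  have hNQ : N ≤ Q := hNlt.le.trans (Subgroup.commutator_le_self Q)
  have : (Q.map f).Normal := Subgroup.Normal.map inferInstance f hf
  let π' : G ⧸ N →* SL(2, K) := QuotientGroup.lift N π (hker ▸ hNQ)
  have hπ' : ∀ g, π' (f g) = π g := fun g => rfl
  have hπ's : Function.Surjective π' := fun s => (hπ s).elim fun g hg => ⟨f g, (hπ' g).trans hg⟩
  have hker' : π'.ker ≤ Q.map f := fun g => by
    obtain ⟨g, rfl⟩ := hf g
    intro hg
    exact Subgroup.mem_map_of_mem f (hker ▸ MonoidHom.mem_ker.2 ((hπ' g).symm.trans hg) : g ∈ Q)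
  have hDmap : ⁅Q.map f, Q.map f⁆ = ⁅Q, Q⁆.map f := (Subgroup.map_commutator Q Q f).symm
  have hne' : ⁅Q.map f, Q.map f⁆ ≠ ⊥ := fun h => by
    rw [hDmap, Subgroup.map_eq_bot_iff, QuotientGroup.ker_mk'] at h
    exact hNlt.not_ge h
  have hmin : ∀ M : Subgroup (G ⧸ N), M.Normal → M ≤ ⁅Q.map f, Q.map f⁆ → M ≠ ⊥ →
      ⁅Q.map f, Q.map f⁆ ≤ M := by
    intro M hM hMD hM1
    by_contra hnle
    have hNM : N ≤ M.comap f := fun n hn => by
      rw [Subgroup.mem_comap, show f n = 1 from (QuotientGroup.eq_one_iff n).2 hn]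
      exact M.one_mem
    have hlt : M.comap f < ⁅Q, Q⁆ := by
      refine lt_of_le_of_ne (fun g hg => ?_) fun h => hnle ?_
      · have := hMD (Subgroup.mem_comap.1 hg)
        rw [hDmap, ← Subgroup.mem_comap, Subgroup.comap_map_eq, QuotientGroup.ker_mk',
          sup_eq_left.2 hNlt.le] at this
        exact this
      · rw [hDmap, ← h, Subgroup.map_comap_eq_self_of_surjective hf]
    have h := hmax (⟨hM.comap f, hlt⟩ : M.comap f ∈ {N : Subgroup G | N.Normal ∧ N < ⁅Q, Q⁆}) hNM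
    apply hM1
    rw [← Subgroup.map_comap_eq_self_of_surjective hf M, Subgroup.map_eq_bot_iff,
      QuotientGroup.ker_mk']
    exact h
  have hQ' : IsPGroup 2 (Q.map f) := hQ.map f
  have hDQ : ⁅Q.map f, Q.map f⁆ ≤ Q.map f := Subgroup.commutator_le_self _
  -- central
  have hcent : ⁅Q.map f, Q.map f⁆ ≤ Subgroup.centralizer (Q.map f : Set (G ⧸ N)) := by
    refine (hmin (⁅Q.map f, Q.map f⁆ ⊓ Subgroup.centralizer (Q.map f : Set (G ⧸ N))) inferInstance
      inf_le_left ?_).trans inf_le_right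
    have : Fact (Nat.Prime 2) := ⟨Nat.prime_two⟩
    obtain ⟨⟨d, hd1, hd2⟩, hd⟩ := Subgroup.ne_bot_iff_exists_ne_one.1
      (PGroup.inf_center_ne_bot hQ' (⁅Q.map f, Q.map f⁆.subgroupOf (Q.map f)) fun h => hne' <| by
        rw [← Subgroup.map_subgroupOf_eq_of_le hDQ, h, Subgroup.map_bot])
    refine Subgroup.ne_bot_iff_exists_ne_one.2 ⟨⟨d, hd1, fun q hq => ?_⟩, fun h => hd ?_⟩
    · exact congrArg Subtype.val (Subgroup.mem_center_iff.1 hd2 ⟨q, hq⟩)
    · exact Subtype.ext (Subtype.ext (show (d : G ⧸ N) = 1 from congrArg Subtype.val h))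
  -- of exponent two
  have hc : ∀ d ∈ ⁅Q.map f, Q.map f⁆, ∀ q ∈ Q.map f, q * d = d * q := fun d hd q hq =>
    Subgroup.mem_centralizer_iff.1 (hcent hd) q hq
  have hsq : ∀ d ∈ ⁅Q.map f, Q.map f⁆, d * d = 1 := by
    let T : Subgroup (G ⧸ N) :=
      { carrier := {d | d ∈ ⁅Q.map f, Q.map f⁆ ∧ d * d = 1}
        one_mem' := ⟨one_mem _, one_mul 1⟩
        mul_mem' := fun {a b} ha hb => ⟨mul_mem ha.1 hb.1, by
          rw [mul_assoc, ← mul_assoc b, hc a ha.1 b (hDQ hb.1), mul_assoc a b, hb.2, mul_one, ha.2]⟩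
        inv_mem' := fun {a} ha => ⟨inv_mem ha.1, by rw [← mul_inv_rev, ha.2, inv_one]⟩ }
    have hTn : T.Normal := ⟨fun d hd g => ⟨Subgroup.Normal.conj_mem inferInstance d hd.1 g, by
      calc g * d * g⁻¹ * (g * d * g⁻¹) = g * (d * d) * g⁻¹ := by group
        _ = 1 := by rw [hd.2, mul_one, mul_inv_cancel]⟩⟩
    have hT1 : T ≠ ⊥ := by
      have : Fact (Nat.Prime 2) := ⟨Nat.prime_two⟩
      have hdvd : 2 ∣ Nat.card ↥(⁅Q.map f, Q.map f⁆) := by
        rcases (hQ'.to_le hDQ).card_eq_or_dvd with h | h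
        · exact absurd (Subgroup.card_eq_one.1 h) hne'
        · exact h
      obtain ⟨d, hd⟩ := exists_prime_orderOf_dvd_card' 2 hdvd
      refine Subgroup.ne_bot_iff_exists_ne_one.2 ⟨⟨d, d.2, ?_⟩, fun h => ?_⟩
      · rw [← pow_two, ← Subgroup.coe_pow, ← hd, pow_orderOf_eq_one, Subgroup.coe_one]
      · have hd1 : d = 1 := Subtype.ext (show (d : G ⧸ N) = 1 from congrArg Subtype.val h)
        rw [hd1, orderOf_one] at hd
        omega
    exact fun d hd => (hmin T hTn (fun x hx => hx.1) hT1 hd).2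
  exact hne' (commutator_eq_bot_of_central hK π' hπ's (Q.map f) hker'
    (fun a ha => (hY a ha).elim fun y hy => ⟨f y, (hπ' y).trans hy.1, hy.2.map f⟩) hc hsq)

/-- `Q` is elementary abelian. -/
theorem sq_eq_one [Finite G] [Finite K] (hK : 4 ≤ Nat.card K) (π : G →* SL(2, K))
    (hπ : Function.Surjective π) (Q : Subgroup G) [Q.Normal] (hQ : IsPGroup 2 Q)
    (hker : π.ker ≤ Q) (hQc : ∀ a ∈ Q, ∀ b ∈ Q, a * b = b * a)
    (hY : ∀ a : K, a ≠ 0 → ∃ y, π y = upper a * lower a⁻¹ ∧ IsThreeAction Q y) :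
    ∀ q ∈ Q, q ^ 2 = 1 := by
  let A : Subgroup G :=
    { carrier := {a | a ∈ Q ∧ a ^ 4 = 1}
      one_mem' := ⟨one_mem _, one_pow 4⟩
      mul_mem' := fun {a b} ha hb => ⟨mul_mem ha.1 hb.1, by
        rw [(show Commute a b from hQc a ha.1 b hb.1).mul_pow, ha.2, hb.2, mul_one]⟩
      inv_mem' := fun {a} ha => ⟨inv_mem ha.1, by rw [inv_pow, ha.2, inv_one]⟩ }
  have hAn : A.Normal := ⟨fun d hd g => ⟨Subgroup.Normal.conj_mem inferInstance d hd.1 g, by
    rw [conj_pow, hd.2, mul_one, mul_inv_cancel]⟩⟩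
  have hAc : IsMulCommutative A := ⟨⟨fun a b => Subtype.ext (hQc _ a.2.1 _ b.2.1)⟩⟩
  have h2 := (exists_action hK π hπ A (fun g hg a ha => hQc g (hker hg) a ha.1)
    (fun a ha => (hY a ha).imp fun y hy => ⟨hy.1, hy.2.mono fun x hx => hx.1⟩)
    (fun a ha => ha.2)).1
  have step : ∀ k : ℕ, ∀ q ∈ Q, q ^ (2 ^ k) = 1 → q ^ 2 = 1 := by
    intro k
    induction k with
    | zero => intro q _ h; rw [pow_zero, pow_one] at h; rw [h, one_pow]
    | succ k ih =>
      intro q hq h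
      rw [pow_succ', pow_mul] at h
      exact h2 q ⟨hq, by rw [show 4 = 2 * 2 from rfl, pow_mul]; exact ih _ (Q.pow_mem hq 2) h⟩
  intro q hq
  obtain ⟨k, hk⟩ := hQ ⟨q, hq⟩
  exact step k q hq (congrArg Subtype.val hk)

end Cfsg.Agent.NaturalSL2
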