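import Mathlib.Data.Matrix.Mul
import Mathlib.Algebra.CharP.Two
import Mathlib.LinearAlgebra.Matrix.Notation
import Mathlib.Algebra.Ring.Subring.Basic
import Mathlib.Tactic.Abel
import Mathlib.Tactic.FinCases

/-!
A ring with a pair `N, P` such that `N² = P² = 0` and `NP + PN = 1` is a ring of 2 × 2 matrices.
-/

set_option autoImplicit false

namespace Cfsg.Agent.NaturalSL2

variable {R : Type*} [Ring R]

/-- The coefficient ring. -/
abbrev coeffRing (N P : R) : Subring R := Subring.centralizer {N, P}

theorem mem_coeffRing {N P r : R} : r ∈ coeffRing N P ↔ N * r = r * N ∧ P * r = r * P := by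
  simp [coeffRing, Subring.mem_centralizer_iff]

variable {N P : R} (hN : N * N = 0) (hP : P * P = 0) (h : N * P + P * N = 1)

include hN h in
theorem mul_mul_self : N * P * N = N := by
  have := congrArg (fun x => N * x) h
  simp only [mul_add, ← mul_assoc, hN, zero_mul, zero_add, mul_one] at this
  exact this

include hN h in
theorem mul_cancel_left (x : R) : N * (P * (N * x)) = N * x := by
  rw [← mul_assoc, ← mul_assoc, mul_mul_self hN h]

/-- The embedding of the matrices. -/
def ofMatrix (M : Matrix (Fin 2) (Fin 2) (coeffRing N P)) : R :=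
  (M 0 0 : R) * (N * P) + (M 0 1 : R) * N + (M 1 0 : R) * P + (M 1 1 : R) * (P * N)

include hN hP h

theorem exists_matrix_equiv :
    ∃ Ψ : Matrix (Fin 2) (Fin 2) (coeffRing N P) ≃+* R, ∀ M, Ψ M = ofMatrix M := by
  have h' : P * N + N * P = 1 := by rw [add_comm, h]
  have n0 : ∀ x, N * (N * x) = 0 := fun x => by rw [← mul_assoc, hN, zero_mul]
  have p0 : ∀ x, P * (P * x) = 0 := fun x => by rw [← mul_assoc, hP, zero_mul]
  have npn := mul_cancel_left hN h
  have pnp := mul_cancel_left hP h'
  have npn' : N * (P * N) = N := by rw [← mul_assoc]; exact mul_mul_self hN h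
  have pnp' : P * (N * P) = P := by rw [← mul_assoc]; exact mul_mul_self hP h'
  have hsum : ∀ x, N * (P * x) + P * (N * x) = x := fun x => by
    rw [← mul_assoc, ← mul_assoc, ← add_mul, h, one_mul]
  have cN : ∀ (b : coeffRing N P), N * (b : R) = b * N := fun b => (mem_coeffRing.1 b.2).1
  have cP : ∀ (b : coeffRing N P), P * (b : R) = b * P := fun b => (mem_coeffRing.1 b.2).2
  have cN' : ∀ (b : coeffRing N P) (x : R), N * ((b : R) * x) = b * (N * x) := fun b x => by
    rw [← mul_assoc, cN, mul_assoc]
  have cP' : ∀ (b : coeffRing N P) (x : R), P * ((b : R) * x) = b * (P * x) := fun b x => by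
    rw [← mul_assoc, cP, mul_assoc]
  let f : Matrix (Fin 2) (Fin 2) (coeffRing N P) →+* R :=
    { toFun := ofMatrix
      map_one' := by simp [ofMatrix, h]
      map_zero' := by simp [ofMatrix]
      map_add' := fun A B => by
        simp only [ofMatrix, Matrix.add_apply, Subring.coe_add, add_mul]
        abel
      map_mul' := fun A B => by
        simp only [ofMatrix, Matrix.mul_apply, Fin.sum_univ_two, Subring.coe_add, Subring.coe_mul,
          add_mul, mul_add, mul_assoc, cN', cP', cN, cP, hN, hP, n0, p0, npn, pnp, npn', pnp',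
          mul_zero, add_zero, zero_add]
        abel }
  have mem : ∀ r, (N * (P * (r * (N * P))) + P * (r * N) ∈ coeffRing N P) ∧
      (N * (P * (r * P)) + P * (r * (P * N)) ∈ coeffRing N P) ∧
      (N * (r * (N * P)) + P * (N * (r * N)) ∈ coeffRing N P) ∧
      (N * (r * P) + P * (N * (r * (P * N))) ∈ coeffRing N P) := fun r => by
    refine ⟨?_, ?_, ?_, ?_⟩ <;>
      simp only [mem_coeffRing, mul_add, add_mul, mul_assoc, hN, hP, n0, p0, npn, pnp, npn', pnp',
        mul_zero, add_zero, zero_add, and_self]
  let M : R → Matrix (Fin 2) (Fin 2) (coeffRing N P) := fun r =>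
    !![⟨_, (mem r).1⟩, ⟨_, (mem r).2.1⟩; ⟨_, (mem r).2.2.1⟩, ⟨_, (mem r).2.2.2⟩]
  have hfM : ∀ r, f (M r) = r := fun r => by
    show ofMatrix (M r) = r
    simp only [ofMatrix, M, Matrix.of_apply, Matrix.cons_val', Matrix.cons_val_zero,
      Matrix.cons_val_one, Matrix.cons_val_fin_one, add_mul, mul_assoc, hN, hP, n0, p0, npn, pnp,
      npn', pnp', mul_zero, add_zero, zero_add]
    calc N * (P * (r * (N * P))) + N * (P * (r * (P * N))) + P * (N * (r * (N * P))) +
          P * (N * (r * (P * N)))
        = (N * (P * (r * (N * P))) + P * (N * (r * (N * P)))) +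
          (N * (P * (r * (P * N))) + P * (N * (r * (P * N)))) := by abel
      _ = r * (N * P) + r * (P * N) := by rw [hsum, hsum]
      _ = r := by rw [← mul_add, h, mul_one]
  have hMf : ∀ A, M (f A) = A := fun A => by
    ext i j
    fin_cases i <;> fin_cases j <;>
      simp only [M, f, RingHom.coe_mk, MonoidHom.coe_mk, OneHom.coe_mk, ofMatrix, Matrix.of_apply,
        Matrix.cons_val', Matrix.cons_val_zero, Matrix.cons_val_one, Matrix.cons_val_fin_one,
        Fin.zero_eta, Fin.mk_one, Fin.isValue, add_mul, mul_add, mul_assoc, cN', cP', cN, cP, hN,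
        hP, n0, p0, npn, pnp, npn', pnp', mul_zero, add_zero, zero_add] <;>
      rw [← mul_add] <;> simp [h, h']
  exact ⟨{ f with invFun := M, left_inv := hMf, right_inv := hfM }, fun _ => rfl⟩

end Cfsg.Agent.NaturalSL2
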